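import Cfsg.Agent.Lib.Helper24.Central
import Cfsg.Agent.Lib.Helper24.Zeros
import Cfsg.Agent.Lib.Helper24.Codegree
import Cfsg.Agent.Lib.Helper24.Constituent
import Cfsg.Agent.Lib.Helper25.Gagola4
import Cfsg.Prelude.Def_Transfer

set_option autoImplicit false
open Cfsg
open scoped commutatorElement

namespace Cfsg.Agent.Lib.Helper25
namespace Extraspecial

open Cfsg.Agent.Lib.Helper2 Cfsg.Agent.Lib.Helper6 Cfsg.Agent.Lib.Helper24
open scoped ComplexConjugate

attribute [local instance] irrFintype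

variable {P : Type*} [Group P] [Finite P] {p : ℕ} [hp : Fact p.Prime]

/-- a character not trivial on the centre vanishes outside the centre. -/
theorem vanish_off_center (hP : IsExtraspecial p P) {χ : P → ℂ} (hχ : IsIrrCharacter P χ)
    (hker : ¬ ∀ z ∈ Subgroup.center P, χ z = χ 1) (x : P) (hx : x ∉ Subgroup.center P) : χ x = 0 := by
  by_contra h0
  apply hker
  rw [Subgroup.mem_center_iff] at hx
  push Not at hx
  obtain ⟨y, hy⟩ := hx
  have hc : y * x * y⁻¹ * x⁻¹ ∈ Subgroup.center P := by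
    rw [← hP.1.2.2]
    exact Subgroup.commutator_mem_commutator (Subgroup.mem_top y) (Subgroup.mem_top x)
  have hc1 : y * x * y⁻¹ * x⁻¹ ≠ 1 := by
    intro h
    apply hy
    have : y * x = (y * x * y⁻¹ * x⁻¹) * (x * y) := by group
    rw [this, h, one_mul]
  obtain ⟨c, hcdef⟩ : ∃ c, c = y * x * y⁻¹ * x⁻¹ := ⟨_, rfl⟩
  rw [← hcdef] at hc hc1
  have h1 : χ (c * x) = χ x := by
    have : c * x = y * x * y⁻¹ := by rw [hcdef]; group
    rw [this]
    exact irr_isClassFunction hχ x y
  rw [central_mul hχ hc x] at h1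
  have h10 := irr_one_ne_zero hχ
  have h2 : χ c = χ 1 := by
    field_simp at h1
    exact h1
  have hcK : c ∈ kerOf (IsIrrCharacter.isCharacter hχ) := (mem_kerOf _ c).mpr h2
  intro z hz
  rw [← mem_kerOf (IsIrrCharacter.isCharacter hχ)]
  have hcard : Nat.card (Subgroup.center P) = p := hP.2
  have h3 : Subgroup.zpowers (⟨c, hc⟩ : Subgroup.center P) = ⊤ :=
    zpowers_eq_top_of_prime_card hcard (fun h => hc1 (congrArg Subtype.val h))
  have h4 : (⟨z, hz⟩ : Subgroup.center P) ∈ Subgroup.zpowers (⟨c, hc⟩ : Subgroup.center P) := by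
    rw [h3]; trivial
  obtain ⟨k, hk⟩ := Subgroup.mem_zpowers_iff.mp h4
  have h5 : c ^ k = z := congrArg Subtype.val hk
  rw [← h5]
  exact Subgroup.zpow_mem _ hcK k

theorem degree_sq (hP : IsExtraspecial p P) {χ : P → ℂ} (hχ : IsIrrCharacter P χ)
    (hker : ¬ ∀ z ∈ Subgroup.center P, χ z = χ 1) : p * charDegree χ ^ 2 = Nat.card P := by
  classical
  cases nonempty_fintype P
  have h1 := sum_norm_sq hχ
  have hd := charDegree_cast (IsIrrCharacter.isCharacter hχ)
  have hpt : ∀ g : P, ‖χ g‖ ^ 2 = if g ∈ Subgroup.center P then (charDegree χ : ℝ) ^ 2 else 0 := by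
    intro g
    split_ifs with hg
    · rw [norm_central hχ hg, ← hd]; simp
    · rw [vanish_off_center hP hχ hker g hg]; simp
  rw [Finset.sum_congr rfl (fun g _ => hpt g), ← Finset.sum_filter, Finset.sum_const, nsmul_eq_mul] at h1
  have h2 : (Finset.univ.filter (fun g : P => g ∈ Subgroup.center P)).card = p := by
    rw [← hP.2, Nat.card_eq_fintype_card, Fintype.card_subtype]
  rw [h2] at h1
  exact_mod_cast h1

theorem degree_eq (hP : IsExtraspecial p P) {n : ℕ} (hcard : Nat.card P = p ^ (2 * n + 1)) {χ : P → ℂ}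
    (hχ : IsIrrCharacter P χ) (hker : ¬ ∀ z ∈ Subgroup.center P, χ z = χ 1) : charDegree χ = p ^ n := by
  have h1 := degree_sq hP hχ hker
  rw [hcard, pow_succ, mul_comm] at h1
  have h2 : charDegree χ ^ 2 = (p ^ n) ^ 2 := by
    rw [← pow_mul, mul_comm n 2]
    exact Nat.eq_of_mul_eq_mul_right hp.out.pos h1
  exact Nat.pow_left_injective (n := 2) (by norm_num) h2

theorem degree_one (hP : IsExtraspecial p P) {χ : P → ℂ} (hχ : IsIrrCharacter P χ)
    (hker : ∀ z ∈ Subgroup.center P, χ z = χ 1) : χ 1 = 1 := by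
  obtain ⟨ψ, hψ, h⟩ := IsIrrCharacter.deflate (Subgroup.center P) hχ hker
  have hcomm : ∀ x y : P ⧸ Subgroup.center P, x * y = y * x := by
    intro x y
    obtain ⟨x, rfl⟩ := QuotientGroup.mk'_surjective _ x
    obtain ⟨y, rfl⟩ := QuotientGroup.mk'_surjective _ y
    rw [← map_mul, ← map_mul]
    apply QuotientGroup.eq.mpr
    have : (x * y)⁻¹ * (y * x) = ⁅y⁻¹, x⁻¹⁆ := by rw [commutatorElement_def]; group
    rw [this, ← hP.1.2.2]
    exact Subgroup.commutator_mem_commutator (Subgroup.mem_top _) (Subgroup.mem_top _)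
  have h1 := Gagola.degree_one_of_comm hcomm hψ
  rw [← h 1]
  exact h1

theorem n_ne_zero (hP : IsExtraspecial p P) {n : ℕ} (hcard : Nat.card P = p ^ (2 * n + 1)) : n ≠ 0 := by
  rintro rfl
  have h1 : Nat.card (Subgroup.center P) = Nat.card P := by rw [hP.2, hcard]; simp
  have h2 : Subgroup.center P = ⊤ := Subgroup.eq_top_of_card_eq _ h1
  have h3 : commutator P = ⊥ := by
    rw [commutator_def, Subgroup.commutator_eq_bot_iff_le_centralizer]
    intro x _
    rw [Subgroup.mem_centralizer_iff]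
    intro y _
    have : x ∈ Subgroup.center P := by rw [h2]; trivial
    exact Subgroup.mem_center_iff.mp this y
  rw [hP.1.2.2, h2] at h3
  have h4 : Nat.card P = 1 := by
    rw [← Subgroup.card_top, h3, Subgroup.card_bot]
  rw [hcard] at h4
  simp at h4
  exact hp.out.one_lt.ne' h4

end Extraspecial
end Cfsg.Agent.Lib.Helper25
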