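import Cfsg.Agent.Lib.Helper24.Zeros
import Cfsg.Agent.Lib.Helper13.CharTools

set_option autoImplicit false
open Cfsg

namespace Cfsg.Agent.Lib.Helper25

open Cfsg.Agent.Lib.Helper2 Cfsg.Agent.Lib.Helper6 Cfsg.Agent.Lib.Helper24 Cfsg.Agent.Lib.Helper13
open scoped ComplexConjugate

attribute [local instance] irrFintype

variable {G : Type*} [Group G] [Fintype G]

/-- average of a function over the cosets `N g`. -/
noncomputable def avgN (N : Subgroup G) [Fintype N] (Φ : G → ℂ) : G → ℂ :=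
  fun g => (Nat.card N : ℂ)⁻¹ * ∑ n : N, Φ ((n : G) * g)

theorem avgN_apply (N : Subgroup G) [Fintype N] (Φ : G → ℂ) (g : G) :
    avgN N Φ g = (Nat.card N : ℂ)⁻¹ * ∑ n : N, Φ ((n : G) * g) := rfl

theorem avgN_sum {ι : Type*} (s : Finset ι) (N : Subgroup G) [Fintype N] (Φ : ι → G → ℂ) :
    avgN N (∑ i ∈ s, Φ i) = ∑ i ∈ s, avgN N (Φ i) := by
  ext g
  simp only [avgN, Finset.sum_apply]
  rw [Finset.sum_comm, Finset.mul_sum]

theorem avgN_smul (N : Subgroup G) [Fintype N] (c : ℂ) (Φ : G → ℂ) :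
    avgN N (c • Φ) = c • avgN N Φ := by
  ext g
  simp only [avgN, Pi.smul_apply, smul_eq_mul, ← Finset.mul_sum]
  ring

theorem char_mul_comm {χ : G → ℂ} (hχ : IsClassFunction G χ) (a b : G) : χ (a * b) = χ (b * a) := by
  have := hχ (b * a) a
  rw [← this]
  congr 1
  group

theorem avgN_irr (N : Subgroup G) [N.Normal] [Fintype N] {ψ : G → ℂ} (hψ : IsIrrCharacter G ψ) :
    avgN N ψ = ψ ∨ avgN N ψ = 0 := by
  classical
  have hN0 : (Nat.card N : ℂ) ≠ 0 := card_subgroup_ne_zero N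
  rcases sum_normal_eq_zero_or N hψ with h | h
  · left
    ext g
    have h1 : ∀ n : N, ψ ((n : G) * g) = ψ g := by
      intro n
      have h2 := h n n.2
      obtain ⟨d, ρ, _, rfl⟩ := hψ
      have h3 := rep_eq_one_of_char_eq ρ n h2
      simp only [Representation.character, map_mul, h3, one_mul]
    simp only [avgN, h1, Finset.sum_const, Finset.card_univ, nsmul_eq_mul, ← Nat.card_eq_fintype_card]
    rw [← mul_assoc, inv_mul_cancel₀ hN0, one_mul]
  · right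
    ext g
    have h1 : ∑ n : N, ψ (N.subtype n) = 0 := by
      rw [← h, ← Finset.sum_filter]
      exact (Finset.sum_subtype (Finset.univ.filter (· ∈ N)) (by simp) (fun x => ψ x)).symm
    have h2 := sum_mul_eq_zero_of_sum_eq_zero N.subtype (IsIrrCharacter.isCharacter hψ) h1 g
    have h3 : ∑ n : N, ψ ((n : G) * g) = 0 := by
      rw [← h2]
      refine Finset.sum_congr rfl fun n _ => ?_
      exact char_mul_comm (irr_isClassFunction hψ) _ _
    simp only [avgN, h3, mul_zero, Pi.zero_apply]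

theorem avgN_isCharacter (N : Subgroup G) [N.Normal] [Fintype N] {Φ : G → ℂ} (hΦ : IsCharacter G Φ) :
    IsCharacter G (avgN N Φ) := by
  obtain ⟨m, hm⟩ := IsCharacter.exists_eq_sum hΦ
  rw [hm, avgN_sum]
  apply IsCharacter.sum
  intro ψ _
  rw [avgN_smul]
  apply IsCharacter.nsmul
  rcases avgN_irr N ψ.2 with h | h
  · rw [h]; exact IsIrrCharacter.isCharacter ψ.2
  · rw [h]; exact isCharacter_zero

theorem sum_avgN (N : Subgroup G) [Fintype N] (Φ : G → ℂ) : ∑ g, avgN N Φ g = ∑ g, Φ g := by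
  have hN0 : (Nat.card N : ℂ) ≠ 0 := card_subgroup_ne_zero N
  simp only [avgN]
  rw [← Finset.mul_sum, Finset.sum_comm]
  have h1 : ∀ n : N, ∑ g : G, Φ ((n : G) * g) = ∑ g, Φ g := fun n =>
    Equiv.sum_comp (Equiv.mulLeft (n : G)) Φ
  simp only [h1, Finset.sum_const, Finset.card_univ, nsmul_eq_mul, ← Nat.card_eq_fintype_card]
  rw [← mul_assoc, inv_mul_cancel₀ hN0, one_mul]

/-- AM-GM (first powers) for the conjugates of a nonzero character value. -/
theorem card_units_le_sum_norm {χ : G → ℂ} (hχ : IsCharacter G χ) (x : G) (n : ℕ) [NeZero n]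
    (hx : x ^ n = 1) (h0 : χ x ≠ 0) :
    (Fintype.card (ZMod n)ˣ : ℝ) ≤ ∑ k : (ZMod n)ˣ, ‖χ (x ^ (k : ZMod n).val)‖ := by
  have h1 := one_le_prod_norm hχ x n hx h0
  have hpos : ∀ k : (ZMod n)ˣ, 0 < ‖χ (x ^ (k : ZMod n).val)‖ := by
    intro k
    rcases (norm_nonneg (χ (x ^ (k : ZMod n).val))).lt_or_eq with h | h
    · exact h
    · exfalso
      have : ∏ k : (ZMod n)ˣ, ‖χ (x ^ (k : ZMod n).val)‖ = 0 :=
        Finset.prod_eq_zero (Finset.mem_univ k) h.symm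
      rw [this] at h1
      linarith
  have h2 : ∀ k : (ZMod n)ˣ, Real.log (‖χ (x ^ (k : ZMod n).val)‖) ≤
      ‖χ (x ^ (k : ZMod n).val)‖ - 1 := fun k =>
    Real.log_le_sub_one_of_pos (hpos k)
  have h3 : ∑ k : (ZMod n)ˣ, Real.log (‖χ (x ^ (k : ZMod n).val)‖) ≤
      ∑ k : (ZMod n)ˣ, (‖χ (x ^ (k : ZMod n).val)‖ - 1) :=
    Finset.sum_le_sum fun k _ => h2 k
  rw [← Real.log_prod (fun k _ => (hpos k).ne'), Finset.sum_sub_distrib] at h3
  have h4 : 0 ≤ Real.log (∏ k : (ZMod n)ˣ, ‖χ (x ^ (k : ZMod n).val)‖) :=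
    Real.log_nonneg h1
  simp only [Finset.sum_const, Finset.card_univ, nsmul_eq_mul, mul_one] at h3
  linarith

/-- a nowhere vanishing character `Ψ` satisfies `|G| - 1 + Ψ(1) ≤ ∑ |Ψ(g)|`. -/
theorem card_le_sum_norm_of_ne_zero {Ψ : G → ℂ} (hΨ : IsCharacter G Ψ) (h0 : ∀ x, Ψ x ≠ 0) :
    (Nat.card G : ℝ) - 1 + ‖Ψ 1‖ ≤ ∑ x : G, ‖Ψ x‖ := by
  classical
  have : NeZero (Nat.card G) := ⟨Nat.card_pos.ne'⟩
  obtain ⟨φ, hφ⟩ : ∃ φ : ℝ, φ = (Fintype.card (ZMod (Nat.card G))ˣ : ℝ) := ⟨_, rfl⟩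
  have hφpos : 0 < φ := by
    rw [hφ]; exact_mod_cast Fintype.card_pos
  have hxn : ∀ x : G, x ^ (Nat.card G) = 1 := fun x => pow_card_eq_one'
  have hsum := sum_sum_pow_units (G := G) (fun g => ‖Ψ g‖)
  rw [← hφ] at hsum
  have hW : ∀ x : G, φ * (if x = 1 then ‖Ψ 1‖ else 1) ≤
      ∑ k : (ZMod (Nat.card G))ˣ, (fun g => ‖Ψ g‖) (x ^ (k : ZMod (Nat.card G)).val) := by
    intro x
    by_cases h1 : x = 1
    · rw [if_pos h1, h1]
      simp only [one_pow, Finset.sum_const, Finset.card_univ, nsmul_eq_mul]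
      rw [hφ]
    · rw [if_neg h1, mul_one, hφ]
      exact card_units_le_sum_norm hΨ x (Nat.card G) (hxn x) (h0 x)
  have h3 := Finset.sum_le_sum (s := Finset.univ) fun x _ => hW x
  rw [hsum, ← Finset.mul_sum] at h3
  have h4 := le_of_mul_le_mul_left h3 hφpos
  refine le_trans (le_of_eq ?_) h4
  rw [← Finset.add_sum_erase _ _ (Finset.mem_univ (1 : G)), if_pos rfl]
  have h5 : ∑ x ∈ Finset.univ.erase (1 : G), (if x = 1 then ‖Ψ 1‖ else (1 : ℝ))
      = ∑ x ∈ Finset.univ.erase (1 : G), (1 : ℝ) := by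
    refine Finset.sum_congr rfl fun x hx => ?_
    rw [if_neg (Finset.mem_erase.mp hx).1]
  rw [h5, Finset.sum_const, Finset.card_erase_of_mem (Finset.mem_univ _), Finset.card_univ, nsmul_eq_mul,
    mul_one, Nat.card_eq_fintype_card, Nat.cast_sub Fintype.card_pos]
  push_cast
  ring

end Cfsg.Agent.Lib.Helper25
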