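import Cfsg.Agent.Lib.Helper25.Gagola4

set_option autoImplicit false
open Cfsg
open scoped commutatorElement

namespace Cfsg.Agent.Lib.Helper25
namespace Gagola

open Cfsg.Agent.Lib.Helper2 Cfsg.Agent.Lib.Helper6 Cfsg.Agent.Lib.Helper24
open scoped ComplexConjugate

attribute [local instance] irrFintype

section pure

variable {G : Type*} [Group G] [Finite G]

/-- Lemma U: commutators with `z` of elements of a Sylow subgroup cover `N`. -/
theorem exists_commutator_eq {p : ℕ} [hp : Fact p.Prime] {N : Subgroup G} [hNn : N.Normal] (hNp : IsPGroup p N)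
    (P : Sylow p G) {z : G}
    (h1 : Nat.card (Subgroup.centralizer ({z} : Set G)) = Nat.card (Subgroup.centralizer ({(z : G ⧸ N)} : Set (G ⧸ N))))
    (h2 : ∀ u ∈ (P : Subgroup G), u * z * u⁻¹ * z⁻¹ ∈ N) (n : G) (hn : n ∈ N) :
    ∃ u ∈ (P : Subgroup G), u * z * u⁻¹ * z⁻¹ = n := by
  classical
  haveI := Fintype.ofFinite G
  have hNP : N ≤ P := hNp.le_sylow_of_normal P
  -- the order of `C_P(z)`
  obtain ⟨C, hC⟩ : ∃ C : Subgroup G, C = (P : Subgroup G) ⊓ Subgroup.centralizer ({z} : Set G) := ⟨_, rfl⟩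
  have hCp : IsPGroup p C := by rw [hC]; exact P.isPGroup'.to_le inf_le_left
  obtain ⟨t, ht⟩ := hCp.exists_card_eq
  obtain ⟨k, hk⟩ := P.isPGroup'.exists_card_eq
  obtain ⟨j, hj⟩ := hNp.exists_card_eq
  have hd1 : Nat.card C ∣ Nat.card (Subgroup.centralizer ({z} : Set G)) := by
    rw [hC]; exact Subgroup.card_dvd_of_le inf_le_right
  have hd2 : Nat.card (Subgroup.centralizer ({(z : G ⧸ N)} : Set (G ⧸ N))) ∣ Nat.card (G ⧸ N) :=
    Subgroup.card_subgroup_dvd_card _
  have hd3 : Nat.card C * Nat.card N ∣ Nat.card G := by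
    rw [← Subgroup.card_mul_index N, mul_comm, Subgroup.index_eq_card]
    exact Nat.mul_dvd_mul_left _ (hd1.trans (h1 ▸ hd2))
  have hd4 : Nat.card C * Nat.card N ∣ Nat.card (P : Subgroup G) := by
    rw [← Subgroup.card_mul_index (P : Subgroup G)] at hd3
    have hcop : Nat.Coprime (Nat.card C * Nat.card N) (P : Subgroup G).index := by
      rw [ht, hj, ← pow_add]
      exact Nat.Coprime.pow_left _ ((Nat.Prime.coprime_iff_not_dvd hp.out).mpr P.not_dvd_index)
    exact hcop.dvd_of_dvd_mul_right hd3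
  have hle : Nat.card C * Nat.card N ≤ Nat.card (P : Subgroup G) := Nat.le_of_dvd Nat.card_pos hd4
  -- counting
  by_contra hcon
  push Not at hcon
  let sP : Finset G := Finset.univ.filter (· ∈ (P : Subgroup G))
  let sN : Finset G := Finset.univ.filter (· ∈ N)
  let sC : Finset G := Finset.univ.filter (· ∈ C)
  have hsP : sP.card = Nat.card (P : Subgroup G) := by
    rw [Nat.card_eq_fintype_card, Fintype.card_subtype]
  have hsN : sN.card = Nat.card N := by
    rw [Nat.card_eq_fintype_card, Fintype.card_subtype]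
  have hsC : sC.card = Nat.card C := by
    rw [Nat.card_eq_fintype_card, Fintype.card_subtype]
  have himg : sP.image (fun u => u * z * u⁻¹ * z⁻¹) ⊆ sN.erase n := by
    intro y hy
    obtain ⟨u, hu, rfl⟩ := Finset.mem_image.mp hy
    have hu' : u ∈ (P : Subgroup G) := (Finset.mem_filter.mp hu).2
    rw [Finset.mem_erase]
    exact ⟨hcon u hu', Finset.mem_filter.mpr ⟨Finset.mem_univ _, h2 u hu'⟩⟩
  have hfib : ∀ y ∈ sP.image (fun u => u * z * u⁻¹ * z⁻¹),
      (sP.filter (fun u => u * z * u⁻¹ * z⁻¹ = y)).card ≤ sC.card := by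
    intro y hy
    obtain ⟨u₀, hu₀, rfl⟩ := Finset.mem_image.mp hy
    have hu₀' : u₀ ∈ (P : Subgroup G) := (Finset.mem_filter.mp hu₀).2
    apply Finset.card_le_card_of_injOn (fun u => u₀⁻¹ * u)
    · intro u hu
      have hu1 := Finset.mem_filter.mp (Finset.mem_coe.mp hu)
      have hu' : u ∈ (P : Subgroup G) := (Finset.mem_filter.mp hu1.1).2
      have hu2 : u * z * u⁻¹ * z⁻¹ = u₀ * z * u₀⁻¹ * z⁻¹ := hu1.2
      apply Finset.mem_coe.mpr
      apply Finset.mem_filter.mpr
      refine ⟨Finset.mem_univ _, ?_⟩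
      rw [hC]
      refine Subgroup.mem_inf.mpr ⟨(P : Subgroup G).mul_mem ((P : Subgroup G).inv_mem hu₀') hu', ?_⟩
      rw [Subgroup.mem_centralizer_singleton_iff]
      have h3 : u * z * u⁻¹ = u₀ * z * u₀⁻¹ := mul_right_cancel hu2
      calc u₀⁻¹ * u * z = u₀⁻¹ * (u * z * u⁻¹) * u := by group
        _ = u₀⁻¹ * (u₀ * z * u₀⁻¹) * u := by rw [h3]
        _ = z * (u₀⁻¹ * u) := by group
    · intro u _ v _ huv
      exact mul_left_cancel huv
  have h3 := Finset.card_le_mul_card_image (f := fun u => u * z * u⁻¹ * z⁻¹) sP sC.card hfib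
  have h4 := Finset.card_le_card himg
  have hnN : n ∈ sN := Finset.mem_filter.mpr ⟨Finset.mem_univ _, hn⟩
  rw [Finset.card_erase_of_mem hnN] at h4
  rw [hsP, hsC] at h3
  rw [hsN] at h4
  have hCpos : 0 < Nat.card C := Nat.card_pos
  have hNpos : 0 < Nat.card N := Nat.card_pos
  have h5 : Nat.card C * (sP.image (fun u => u * z * u⁻¹ * z⁻¹)).card ≤ Nat.card C * (Nat.card N - 1) :=
    Nat.mul_le_mul_left _ h4
  have h6 : Nat.card C * (Nat.card N - 1) < Nat.card C * Nat.card N :=
    Nat.mul_lt_mul_of_pos_left (by omega) hCpos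
  omega

end pure

variable {G : Type*} [Group G] [Fintype G] {χ : G → ℂ} {a : G}

theorem le_of_normal (hG : 2 < Nat.card G) (D : Data χ a) {N : Subgroup G} (hN : ∀ g, g ∈ N ↔ χ g ≠ 0)
    {K : Subgroup G} (hK : K.Normal) (hK1 : K ≠ ⊥) : N ≤ K := by
  classical
  have haN := mem_N D hN
  have hconj := conj_of_mem D hN
  by_cases haK : a ∈ K
  · intro x hx
    by_cases hx1 : x = 1
    · rw [hx1]; exact K.one_mem
    · obtain ⟨g, rfl⟩ := hconj a haN x hx D.ne_one hx1
      exact hK.conj_mem a haK g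
  · exfalso
    have hKN : ∀ k ∈ K, k ≠ 1 → χ k = 0 := by
      intro k hk hk1
      by_contra h0
      obtain ⟨g, hg⟩ := hconj k ((hN k).mpr h0) a haN hk1 D.ne_one
      apply haK
      rw [← hg]
      exact hK.conj_mem k hk g
    haveI := hK
    rcases sum_normal_eq_zero_or K D.irr with h | h
    · apply hK1
      rw [eq_bot_iff]
      intro k hk
      rw [Subgroup.mem_bot]
      exact faithful hG D k (h k hk)
    · have h2 : ∑ g : G, (if g ∈ K then χ g else 0) = χ 1 := by
        rw [Finset.sum_eq_single (1 : G)]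
        · rw [if_pos K.one_mem]
        · intro g _ hg1
          split_ifs with hgK
          · exact hKN g hgK hg1
          · rfl
        · intro h; exact absurd (Finset.mem_univ _) h
      rw [h2] at h
      exact irr_one_ne_zero D.irr h

theorem card_centralizer_quotient (hG : 2 < Nat.card G) (D : Data χ a) {N : Subgroup G} [hNn : N.Normal]
    (hN : ∀ g, g ∈ N ↔ χ g ≠ 0) {x : G} (hx : x ∉ N) :
    Nat.card (Subgroup.centralizer ({x} : Set G))
      = Nat.card (Subgroup.centralizer ({(x : G ⧸ N)} : Set (G ⧸ N))) := by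
  classical
  haveI : Fintype (G ⧸ N) := Fintype.ofFinite _
  have hχx : χ x = 0 := by
    by_contra h
    exact hx ((hN x).mpr h)
  have h1 := column_orthogonality x x
  rw [if_pos (IsConj.refl x)] at h1
  have h2 := column_orthogonality (x : G ⧸ N) (x : G ⧸ N)
  rw [if_pos (IsConj.refl _)] at h2
  have h3 : ∑ ψ : IrrCharacter G, (ψ : G → ℂ) x * conj ((ψ : G → ℂ) x)
      = ∑ φ : IrrCharacter (G ⧸ N), (φ : G ⧸ N → ℂ) (x : G ⧸ N) * conj ((φ : G ⧸ N → ℂ) (x : G ⧸ N)) := by
    rw [← Finset.sum_erase Finset.univ (a := (⟨χ, D.irr⟩ : IrrCharacter G)) (by simp [hχx])]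
    symm
    apply Finset.sum_bij (fun (φ : IrrCharacter (G ⧸ N)) _ =>
      (⟨fun g => (φ : G ⧸ N → ℂ) (QuotientGroup.mk' N g),
        IsIrrCharacter.inflate (QuotientGroup.mk' N) (QuotientGroup.mk'_surjective N) φ.2⟩ : IrrCharacter G))
    · intro φ _
      rw [Finset.mem_erase]
      refine ⟨?_, Finset.mem_univ _⟩
      intro h
      have h4 : (fun g => (φ : G ⧸ N → ℂ) (QuotientGroup.mk' N g)) = χ := congrArg Subtype.val h
      apply D.ne_one
      apply faithful hG D
      rw [← h4]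
      simp only
      have : QuotientGroup.mk' N a = 1 := (QuotientGroup.eq_one_iff a).mpr (mem_N D hN)
      rw [this, map_one]
    · intro φ _ φ' _ h
      apply Subtype.ext
      ext y
      obtain ⟨g, rfl⟩ := QuotientGroup.mk'_surjective N y
      exact congrFun (congrArg Subtype.val h) g
    · intro ψ hψ
      have hne : χ ≠ ψ := fun h => (Finset.mem_erase.mp hψ).1 (Subtype.ext h.symm)
      have hker : ∀ n ∈ N, (ψ : G → ℂ) n = (ψ : G → ℂ) 1 := by
        intro n hn
        rcases D.cases n ((hN n).mp hn) with h5 | h5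
        · rw [h5]
        · rw [← Helper2.IsClassFunction.eq_of_isConj (irr_isClassFunction ψ.2) h5]
          exact apply_eq_of_ne hG D ψ.2 hne
      obtain ⟨φ, hφ, hφ'⟩ := IsIrrCharacter.deflate N ψ.2 hker
      refine ⟨⟨φ, hφ⟩, Finset.mem_univ _, ?_⟩
      apply Subtype.ext
      ext g
      exact hφ' g
    · intro φ _
      rfl
  rw [h1, h2] at h3
  exact_mod_cast h3

end Gagola
end Cfsg.Agent.Lib.Helper25
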