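import Cfsg.Agent.Lib.Helper25.Gagola5
import Cfsg.Agent.Lib.Helper12.Cores
import Cfsg.Agent.Lib.Lead.Frobenius
import Cfsg.Agent.S0199

set_option autoImplicit false
open Cfsg
open scoped commutatorElement Pointwise

namespace Cfsg.Agent.Lib.Helper25
namespace Gagola

open Cfsg.Agent.Lib.Helper2 Cfsg.Agent.Lib.Helper6 Cfsg.Agent.Lib.Helper24
open scoped ComplexConjugate

attribute [local instance] irrFintype

section pure6

variable {G : Type*} [Group G] [Finite G]

/-- A complement acting freely on a normal subgroup is a Frobenius complement with that kernel. -/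
theorem frobenius_of_free {N C : Subgroup G} (hNn : N.Normal) (hN1 : N ≠ ⊥) (hC1 : C ≠ ⊥)
    (hdisj : ∀ x ∈ N, x ∈ C → x = 1) (hgen : ∀ g : G, ∃ n ∈ N, ∃ c ∈ C, g = n * c)
    (hfree : ∀ c ∈ C, ∀ x ∈ N, c * x = x * c → c = 1 ∨ x = 1) :
    IsFrobeniusComplement C ∧ frobeniusKernel C = (N : Set G) := by
  classical
  have hF : IsFrobeniusComplement C := by
    refine ⟨hC1, ?_, ?_⟩
    · intro h
      apply hN1
      rw [eq_bot_iff]
      intro x hx
      exact Subgroup.mem_bot.mpr (hdisj x hx (h ▸ Subgroup.mem_top x))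
    · intro g hg
      rw [eq_bot_iff]
      intro y hy
      obtain ⟨hy1, hy2⟩ := Subgroup.mem_inf.mp hy
      rw [Cfsg.Agent.Lib.Helper1.mem_conj_smul] at hy2
      obtain ⟨n, hn, c, hc, rfl⟩ := hgen g
      have hn1 : n ≠ 1 := by
        rintro rfl
        apply hg
        rwa [one_mul]
      -- `c' = n⁻¹ y n ∈ C`
      have h1 : n⁻¹ * y * n ∈ C := by
        have := C.mul_mem (C.mul_mem hc hy2) (C.inv_mem hc)
        have h2 : c * ((n * c)⁻¹ * y * (n * c)) * c⁻¹ = n⁻¹ * y * n := by group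
        rwa [h2] at this
      have h3 : y⁻¹ * (n⁻¹ * y * n) ∈ N := by
        have h4 : y⁻¹ * n⁻¹ * y⁻¹⁻¹ ∈ N := hNn.conj_mem _ (N.inv_mem hn) _
        have h5 := N.mul_mem h4 hn
        have h6 : y⁻¹ * n⁻¹ * y⁻¹⁻¹ * n = y⁻¹ * (n⁻¹ * y * n) := by group
        rwa [h6] at h5
      have h7 := hdisj _ h3 (C.mul_mem (C.inv_mem hy1) h1)
      have h8 : y * n = n * y := by
        have : n⁻¹ * y * n = y := by
          have := congrArg (fun z => y * z) h7
          simpa using this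
        calc y * n = n * (n⁻¹ * y * n) := by group
          _ = n * y := by rw [this]
      rcases hfree y hy1 n hn h8 with h | h
      · exact Subgroup.mem_bot.mpr h
      · exact absurd h hn1
  refine ⟨hF, ?_⟩
  have hsub : (N : Set G) ⊆ frobeniusKernel C := by
    intro x hx
    by_cases hx1 : x = 1
    · exact Or.inl hx1
    · right
      intro g hg
      rw [Cfsg.Agent.Lib.Helper1.mem_conj_smul] at hg
      have h1 : g⁻¹ * x * g ∈ N := by
        have := hNn.conj_mem x hx g⁻¹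
        rwa [inv_inv] at this
      have h2 := hdisj _ h1 hg
      apply hx1
      calc x = g * (g⁻¹ * x * g) * g⁻¹ := by group
        _ = 1 := by rw [h2]; group
  have hcard := Cfsg.Agent.Lib.Lead.frob_card_kernel hF
  -- `|N| = index C`
  have hcompl : Subgroup.IsComplement' N C := by
    apply Subgroup.isComplement'_of_disjoint_and_mul_eq_univ
    · rw [disjoint_iff, eq_bot_iff]
      intro x hx
      exact Subgroup.mem_bot.mpr (hdisj x hx.1 hx.2)
    · apply Set.eq_univ_of_forall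
      intro g
      obtain ⟨n, hn, c, hc, rfl⟩ := hgen g
      exact Set.mul_mem_mul hn hc
  have hidx : C.index = Nat.card N := by
    have h1 := hcompl.card_mul
    have h2 := C.card_mul_index
    have h3 : 0 < Nat.card C := Nat.card_pos
    nlinarith [h1, h2, h3, mul_comm (Nat.card N) (Nat.card C)]
  symm
  apply Set.eq_of_subset_of_ncard_le hsub
  · rw [← Nat.card_coe_set_eq, ← Nat.card_coe_set_eq, hcard, hidx]
    rfl

/-- Two large subgroups of `N` meet non-trivially. -/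
theorem exists_ne_one_of_card {N A B : Subgroup G} (hA : A ≤ N) (hB : B ≤ N)
    (h1 : Nat.card N < Nat.card A ^ 2) (h2 : Nat.card N < Nat.card B ^ 2) : ∃ x, x ∈ A ∧ x ∈ B ∧ x ≠ 1 := by
  by_contra hcon
  push Not at hcon
  have hinj : Function.Injective (fun ab : A × B => (⟨ab.1 * ab.2, N.mul_mem (hA ab.1.2) (hB ab.2.2)⟩ : N)) := by
    rintro ⟨a, b⟩ ⟨a', b'⟩ h
    have h3 : (a : G) * b = a' * b' := congrArg Subtype.val h
    have h4 : (a' : G)⁻¹ * a = b' * (b : G)⁻¹ := by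
      calc (a' : G)⁻¹ * a = (a' : G)⁻¹ * (a * b) * (b : G)⁻¹ := by group
        _ = (a' : G)⁻¹ * (a' * b') * (b : G)⁻¹ := by rw [h3]
        _ = b' * (b : G)⁻¹ := by group
    have h5 := hcon _ (A.mul_mem (A.inv_mem a'.2) a.2) (h4 ▸ B.mul_mem b'.2 (B.inv_mem b.2))
    have h6 : (a : G) = a' := by
      calc (a : G) = a' * ((a' : G)⁻¹ * a) := by group
        _ = a' := by rw [h5, mul_one]
    have h7 : (b : G) = b' := by
      rw [h6] at h3
      exact mul_left_cancel h3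
    exact Prod.ext (Subtype.ext h6) (Subtype.ext h7)
  have h3 := Nat.card_le_card_of_injective _ hinj
  rw [Nat.card_prod] at h3
  have h4 : Nat.card N * Nat.card N < Nat.card A ^ 2 * Nat.card B ^ 2 := Nat.mul_lt_mul'' h1 h2
  have h5 := Nat.mul_le_mul h3 h3
  have h6 : Nat.card A ^ 2 * Nat.card B ^ 2 = (Nat.card A * Nat.card B) * (Nat.card A * Nat.card B) := by ring
  rw [h6] at h4
  omega

end pure6

variable {G : Type*} [Group G] [Fintype G] {χ : G → ℂ} {a : G}

/-- Elements of a coset `xN`, `x ∉ N`, are all conjugate. -/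
theorem isConj_mul (hG : 2 < Nat.card G) (D : Data χ a) {N : Subgroup G} [hNn : N.Normal]
    (hN : ∀ g, g ∈ N ↔ χ g ≠ 0) {x : G} (hx : x ∉ N) {n : G} (hn : n ∈ N) : IsConj x (x * n) := by
  classical
  by_contra hcon
  have hχx : χ x = 0 := by
    by_contra h
    exact hx ((hN x).mpr h)
  have h1 := column_orthogonality x x
  rw [if_pos (IsConj.refl x)] at h1
  have h2 := column_orthogonality x (x * n)
  rw [if_neg hcon] at h2
  have h3 : ∀ ψ : IrrCharacter G, (ψ : G → ℂ) x * conj ((ψ : G → ℂ) (x * n))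
      = (ψ : G → ℂ) x * conj ((ψ : G → ℂ) x) := by
    intro ψ
    by_cases hne : χ = ψ
    · rw [← hne, hχx, zero_mul, zero_mul]
    · have hker : ∀ n ∈ N, (ψ : G → ℂ) n = (ψ : G → ℂ) 1 := by
        intro n hn
        rcases D.cases n ((hN n).mp hn) with h5 | h5
        · rw [h5]
        · rw [← Helper2.IsClassFunction.eq_of_isConj (irr_isClassFunction ψ.2) h5]
          exact apply_eq_of_ne hG D ψ.2 hne
      obtain ⟨φ, hφ, hφ'⟩ := IsIrrCharacter.deflate N ψ.2 hker
      rw [← hφ' (x * n), ← hφ' x]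
      have : (QuotientGroup.mk (x * n) : G ⧸ N) = QuotientGroup.mk x := by
        rw [QuotientGroup.mk_mul, (QuotientGroup.eq_one_iff n).mpr hn, mul_one]
      rw [this]
  rw [Finset.sum_congr rfl (fun ψ _ => h3 ψ), h1] at h2
  have h4 : 0 < Nat.card (Subgroup.centralizer ({x} : Set G)) := Nat.card_pos
  exact h4.ne' (by exact_mod_cast h2)

/-- A complement of `N` acts freely on `N`. -/
theorem free_of_complement (hG : 2 < Nat.card G) (D : Data χ a) {N : Subgroup G} [hNn : N.Normal]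
    (hN : ∀ g, g ∈ N ↔ χ g ≠ 0) {C : Subgroup G}
    (hdisj : ∀ x ∈ N, x ∈ C → x = 1) (hgen : ∀ g : G, ∃ n ∈ N, ∃ c ∈ C, g = n * c) :
    ∀ c ∈ C, ∀ x ∈ N, c * x = x * c → c = 1 ∨ x = 1 := by
  intro c hc x hx hcx
  by_contra hcon
  push Not at hcon
  obtain ⟨hc1, hx1⟩ := hcon
  have hcN : c ∉ N := fun h => hc1 (hdisj c h hc)
  have hmem : ∀ n : N, c⁻¹ * (n : G) * c * (n : G)⁻¹ ∈ N := by
    intro n
    have h1 := hNn.conj_mem n n.2 c⁻¹
    rw [inv_inv] at h1
    exact N.mul_mem h1 (N.inv_mem n.2)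
  let f : N → N := fun n => ⟨c⁻¹ * (n : G) * c * (n : G)⁻¹, hmem n⟩
  have hsurj : Function.Surjective f := by
    intro y
    obtain ⟨g, hg⟩ := isConj_iff.mp (isConj_mul hG D hN hcN y.2)
    obtain ⟨n, hn, d, hd, rfl⟩ := hgen g
    have h1 : c⁻¹ * (d * c * d⁻¹) ∈ N := by
      have h2 : c⁻¹ * (d * c * d⁻¹) = (c⁻¹ * n⁻¹ * c⁻¹⁻¹) * (y : G) * n := by
        have : d * c * d⁻¹ = n⁻¹ * (n * d * c * (n * d)⁻¹) * n := by group
        rw [this, hg]
        group
      rw [h2]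
      exact N.mul_mem (N.mul_mem (hNn.conj_mem _ (N.inv_mem hn) _) y.2) hn
    have h3 := hdisj _ h1 (C.mul_mem (C.inv_mem hc) (C.mul_mem (C.mul_mem hd hc) (C.inv_mem hd)))
    have h4 : d * c * d⁻¹ = c := by
      calc d * c * d⁻¹ = c * (c⁻¹ * (d * c * d⁻¹)) := by group
        _ = c := by rw [h3, mul_one]
    refine ⟨⟨n, hn⟩, Subtype.ext ?_⟩
    change c⁻¹ * n * c * n⁻¹ = y
    calc c⁻¹ * n * c * n⁻¹ = c⁻¹ * (n * (d * c * d⁻¹) * n⁻¹) := by rw [h4]; group
      _ = c⁻¹ * (n * d * c * (n * d)⁻¹) := by group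
      _ = y := by rw [hg]; group
  have hinj := Finite.injective_iff_surjective.mpr hsurj
  have h5 : f ⟨x, hx⟩ = f 1 := by
    apply Subtype.ext
    change c⁻¹ * x * c * x⁻¹ = c⁻¹ * (1 : G) * c * (1 : G)⁻¹
    calc c⁻¹ * x * c * x⁻¹ = c⁻¹ * (x * c) * x⁻¹ := by group
      _ = c⁻¹ * (c * x) * x⁻¹ := by rw [hcx]
      _ = c⁻¹ * (1 : G) * c * (1 : G)⁻¹ := by group
  exact hx1 (congrArg Subtype.val (hinj h5))

/-- `C_G(N)` is a normal `p`-subgroup. -/
theorem mem_of_centralizes (hG : 2 < Nat.card G) (D : Data χ a) {N : Subgroup G} [hNn : N.Normal]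
    (hN : ∀ g, g ∈ N ↔ χ g ≠ 0) {p : ℕ} [hp : Fact p.Prime] (hNp : IsPGroup p N) (hcore : N = pCore p G) :
    ∀ g : G, (∀ n ∈ N, g * n = n * g) → g ∈ N := by
  intro g hg
  have h1 : IsPGroup p (Subgroup.centralizer (N : Set G)) :=
    (centralizer_sylow hG D hN hNp).1.to_le
      (Subgroup.centralizer_le (Set.singleton_subset_iff.mpr (mem_N D hN)))
  have h2 := Cfsg.Agent.Lib.Helper12.le_pCore (Subgroup.normal_centralizer (H := N)) h1
  rw [← hcore] at h2
  apply h2
  rw [Subgroup.mem_centralizer_iff]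
  intro n hn
  exact (hg n hn).symm

/-- The odd case: a central involution modulo `N` gives a complement. -/
theorem exists_complement_odd (hG : 2 < Nat.card G) (D : Data χ a) {N : Subgroup G} [hNn : N.Normal]
    (hN : ∀ g, g ∈ N ↔ χ g ≠ 0) {p : ℕ} [hp : Fact p.Prime] (hNp : IsPGroup p N) (hp2 : p ≠ 2)
    (hCN : ∀ g : G, (∀ n ∈ N, g * n = n * g) → g ∈ N) :
    ∃ C : Subgroup G, (∀ x ∈ N, x ∈ C → x = 1) ∧ (∀ g : G, ∃ n ∈ N, ∃ c ∈ C, g = n * c) := by
  classical
  have hcomm := comm_of_mem D hNn hN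
  have hcN := card_eq D hN
  obtain ⟨k, hk⟩ := hNp.exists_card_eq
  have hodd : Odd (Nat.card N) := by rw [hk]; exact (hp.out.odd_of_ne_two hp2).pow
  have h2G : 2 ∣ Nat.card G := by
    rw [← card_isConj_mul_card_centralizer a]
    apply Dvd.dvd.mul_right
    rw [hcN] at hodd
    obtain ⟨m, hm⟩ := hodd
    exact ⟨m, by omega⟩
  haveI : Fact (Nat.Prime 2) := ⟨Nat.prime_two⟩
  obtain ⟨t, ht⟩ := exists_prime_orderOf_dvd_card' 2 h2G
  have ht2 : t * t = 1 := by rw [← sq, ← ht, pow_orderOf_eq_one]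
  have htinv : t⁻¹ = t := inv_eq_of_mul_eq_one_left ht2
  have hfix : ∀ x ∈ N, t * x = x * t → x = 1 := by
    intro x hx hxt
    by_contra hx1
    have D' := D.of_ne hx1 ((hN x).mp hx)
    obtain ⟨h1, _⟩ := centralizer_sylow hG D' hN hNp
    have h2 : t ∈ Subgroup.centralizer ({x} : Set G) := Subgroup.mem_centralizer_singleton_iff.mpr hxt
    obtain ⟨j, hj⟩ := h1 ⟨t, h2⟩
    have h3 : t ^ p ^ j = 1 := congrArg Subtype.val hj
    have h4 : 2 ∣ p ^ j := ht ▸ orderOf_dvd_of_pow_eq_one h3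
    have h5 := (Nat.prime_dvd_prime_iff_eq Nat.prime_two hp.out).mp (Nat.prime_two.dvd_of_dvd_pow h4)
    exact hp2 h5.symm
  have hinv : ∀ n ∈ N, t * n * t⁻¹ = n⁻¹ := by
    intro n hn
    have hn' : t * n * t⁻¹ ∈ N := hNn.conj_mem n hn t
    have h1 : t * (n * (t * n * t⁻¹)) = n * (t * n * t⁻¹) * t := by
      calc t * (n * (t * n * t⁻¹)) = (t * n * t⁻¹) * ((t * t) * n * t⁻¹) := by group
        _ = (t * n * t⁻¹) * n * t := by rw [ht2, htinv]; group
        _ = n * (t * n * t⁻¹) * t := by rw [hcomm _ hn' _ hn]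
    have h2 := hfix _ (N.mul_mem hn hn') h1
    exact (eq_inv_of_mul_eq_one_right h2)
  have hsqrt : ∀ m ∈ N, ∃ k ∈ N, k * k = m := by
    intro m hm
    obtain ⟨r, hr⟩ := hodd
    refine ⟨m ^ (r + 1), N.pow_mem hm _, ?_⟩
    have h1 : m ^ Nat.card N = 1 := by
      have := pow_card_eq_one' (G := N) (x := ⟨m, hm⟩)
      exact congrArg Subtype.val this
    rw [← pow_add, show r + 1 + (r + 1) = Nat.card N + 1 by omega, pow_succ, h1, one_mul]
  refine ⟨Subgroup.centralizer ({t} : Set G), ?_, ?_⟩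
  · intro x hx hxC
    rw [Subgroup.mem_centralizer_singleton_iff] at hxC
    exact hfix x hx hxC.symm
  · intro g
    have hm : t * (g * t * g⁻¹) ∈ N := by
      apply hCN
      intro n hn
      have hn' : g⁻¹ * n * g ∈ N := by
        have := hNn.conj_mem n hn g⁻¹
        rwa [inv_inv] at this
      have h1 : g * t * g⁻¹ * n * (g * t * g⁻¹)⁻¹ = n⁻¹ := by
        calc g * t * g⁻¹ * n * (g * t * g⁻¹)⁻¹ = g * (t * (g⁻¹ * n * g) * t⁻¹) * g⁻¹ := by group
          _ = g * (g⁻¹ * n * g)⁻¹ * g⁻¹ := by rw [hinv _ hn']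
          _ = n⁻¹ := by group
      have h2 : t * (g * t * g⁻¹) * n * (t * (g * t * g⁻¹))⁻¹ = n := by
        calc t * (g * t * g⁻¹) * n * (t * (g * t * g⁻¹))⁻¹
            = t * (g * t * g⁻¹ * n * (g * t * g⁻¹)⁻¹) * t⁻¹ := by group
          _ = t * n⁻¹ * t⁻¹ := by rw [h1]
          _ = n := by rw [hinv _ (N.inv_mem hn), inv_inv]
      calc t * (g * t * g⁻¹) * n = t * (g * t * g⁻¹) * n * (t * (g * t * g⁻¹))⁻¹ * (t * (g * t * g⁻¹)) := by
            group
        _ = n * (t * (g * t * g⁻¹)) := by rw [h2]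
    obtain ⟨k, hk, hkk⟩ := hsqrt _ (N.inv_mem hm)
    refine ⟨k, hk, k⁻¹ * g, ?_, by group⟩
    rw [Subgroup.mem_centralizer_singleton_iff]
    have h3 : t * k⁻¹ * t⁻¹ = k := by rw [hinv _ (N.inv_mem hk), inv_inv]
    have h4 : k⁻¹ * t = t * k := by
      calc k⁻¹ * t = t * (t * k⁻¹ * t⁻¹) * (t * t) := by
            rw [htinv]
            calc k⁻¹ * t = (t * t) * k⁻¹ * t := by rw [ht2, one_mul]
              _ = (t * t) * k⁻¹ * (t * t) * t := by rw [ht2]; group
              _ = t * (t * k⁻¹ * t) * (t * t) := by group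
        _ = t * k := by rw [h3, ht2, mul_one]
    have h5 : g * t * g⁻¹ = t * (k * k)⁻¹ := by
      rw [hkk, inv_inv, ← mul_assoc, ht2, one_mul]
    calc k⁻¹ * g * t = k⁻¹ * (g * t * g⁻¹) * g := by group
      _ = k⁻¹ * (t * (k * k)⁻¹) * g := by rw [h5]
      _ = (k⁻¹ * t) * (k * k)⁻¹ * g := by group
      _ = t * k * (k * k)⁻¹ * g := by rw [h4]
      _ = t * (k⁻¹ * g) := by group

/-- `N` has exponent `p`. -/
theorem pow_eq_one (D : Data χ a) {N : Subgroup G} [hNn : N.Normal]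
    (hN : ∀ g, g ∈ N ↔ χ g ≠ 0) {p : ℕ} [hp : Fact p.Prime] (hNp : IsPGroup p N) :
    ∀ n ∈ N, n ^ p = 1 := by
  have haN := mem_N D hN
  have hN1 : N ≠ ⊥ := by
    intro h
    rw [h, Subgroup.mem_bot] at haN
    exact D.ne_one haN
  obtain ⟨q, hq, _, hq2⟩ := elementaryAbelian_of_conj hNn hN1 (conj_of_mem D hN)
  haveI : Fact q.Prime := ⟨hq⟩
  have h1 : orderOf a = q := orderOf_eq_prime (hq2 a haN) D.ne_one
  obtain ⟨j, hj⟩ := hNp ⟨a, haN⟩
  have h3 : a ^ p ^ j = 1 := congrArg Subtype.val hj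
  have h4 : q ∣ p ^ j := h1 ▸ orderOf_dvd_of_pow_eq_one h3
  have h5 := (Nat.prime_dvd_prime_iff_eq hq hp.out).mp (hq.dvd_of_dvd_pow h4)
  rw [← h5]
  exact hq2

/-- For `p = 2`: an element outside `N` with square in `N` has a large centraliser in `N`. -/
theorem card_lt_sq (hG : 2 < Nat.card G) (D : Data χ a) {N : Subgroup G} [hNn : N.Normal]
    (hN : ∀ g, g ∈ N ↔ χ g ≠ 0) (hNp : IsPGroup 2 N)
    (hCN : ∀ g : G, (∀ n ∈ N, g * n = n * g) → g ∈ N) {u : G} (hu : u ∉ N) (hu2 : u * u ∈ N) :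
    Nat.card N < Nat.card (N ⊓ Subgroup.centralizer ({u} : Set G) : Subgroup G) ^ 2 := by
  classical
  haveI : Fact (Nat.Prime 2) := ⟨Nat.prime_two⟩
  have hcomm := comm_of_mem D hNn hN
  have hexp := pow_eq_one D hN hNp
  have hinvN : ∀ n ∈ N, n⁻¹ = n := by
    intro n hn
    apply inv_eq_of_mul_eq_one_left
    rw [← sq]
    exact hexp n hn
  letI : CommGroup N :=
    { (inferInstance : Group N) with mul_comm := fun x y => Subtype.ext (hcomm x x.2 y y.2) }
  let φ : N →* N := (MulAut.conjNormal u⁻¹ : MulAut N).toMonoidHom * MonoidHom.id N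
  have hφ : ∀ n : N, ((φ n : N) : G) = u⁻¹ * n * u * n := by
    intro n
    change ((MulAut.conjNormal u⁻¹ : MulAut N) n : G) * (n : G) = _
    rw [MulAut.conjNormal_apply, inv_inv]
  have hsq : ∀ n : N, u * n * (u * n) = u * u * (φ n : N) := by
    intro n
    rw [hφ]
    group
  have hker : ∀ n : N, n ∈ φ.ker ↔ (n : G) * u = u * n := by
    intro n
    rw [MonoidHom.mem_ker]
    constructor
    · intro h
      have h1 : u⁻¹ * (n : G) * u * n = 1 := by rw [← hφ, h]; rfl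
      have h2 : u⁻¹ * (n : G) * u = n := by
        rw [← hinvN n n.2]
        exact eq_inv_of_mul_eq_one_left (by rw [hinvN n n.2]; exact h1)
      calc (n : G) * u = u * (u⁻¹ * n * u) := by group
        _ = u * n := by rw [h2]
    · intro h
      apply Subtype.ext
      rw [hφ]
      calc u⁻¹ * (n : G) * u * n = u⁻¹ * (n * u) * n := by group
        _ = u⁻¹ * (u * n) * n := by rw [h]
        _ = (n : G) ^ 2 := by rw [sq]; group
        _ = 1 := hexp n n.2
  have hrange : φ.range ≤ φ.ker := by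
    rintro _ ⟨n, rfl⟩
    rw [hker, hφ]
    have hn' : u⁻¹ * (n : G) * u ∈ N := by
      have := hNn.conj_mem n n.2 u⁻¹
      rwa [inv_inv] at this
    have h1 : (u * u) * (n : G) = n * (u * u) := hcomm _ hu2 _ n.2
    calc u⁻¹ * (n : G) * u * n * u = (u⁻¹ * n * u) * n * u := by group
      _ = n * (u⁻¹ * n * u) * u := by rw [hcomm _ hn' _ n.2]
      _ = n * u⁻¹ * (n * (u * u)) := by group
      _ = n * u⁻¹ * ((u * u) * n) := by rw [h1]
      _ = u * (u⁻¹ * n * u * n) := by group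
  let z : N := ⟨(u * u)⁻¹, N.inv_mem hu2⟩
  have hzker : z ∈ φ.ker := by
    rw [hker]
    change (u * u)⁻¹ * u = u * (u * u)⁻¹
    group
  have hsq_conj : ∀ m : N, u * u = 1 → u * m * (u * m) = 1 := by
    intro m h1
    obtain ⟨g, hg⟩ := isConj_iff.mp (isConj_mul hG D hN hu m.2)
    rw [← hg]
    calc g * u * g⁻¹ * (g * u * g⁻¹) = g * (u * u) * g⁻¹ := by group
      _ = 1 := by rw [h1]; group
  have hzrange : z ∉ φ.range := by
    rintro ⟨n, hn⟩
    have h1 : u * n * (u * n) = 1 := by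
      rw [hsq, hn]
      change u * u * (u * u)⁻¹ = 1
      group
    have h2 : u * u = 1 := by
      obtain ⟨g, hg⟩ := isConj_iff.mp (isConj_mul hG D hN hu n.2)
      rw [← hg] at h1
      calc u * u = g⁻¹ * (g * u * g⁻¹ * (g * u * g⁻¹)) * g := by group
        _ = 1 := by rw [h1]; group
    apply hu
    apply hCN
    intro m hm
    have h3 := hsq_conj ⟨m, hm⟩ h2
    rw [hsq, h2, one_mul] at h3
    have h4 : (⟨m, hm⟩ : N) ∈ φ.ker := by
      rw [MonoidHom.mem_ker]
      exact Subtype.ext h3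
    exact ((hker _).mp h4).symm
  have hlt : Nat.card φ.range < Nat.card φ.ker := by
    apply lt_of_le_of_ne (Subgroup.card_le_of_le hrange)
    intro h
    have := Subgroup.eq_of_le_of_card_ge hrange h.ge
    exact hzrange (this ▸ hzker)
  have hcard : Nat.card N = Nat.card φ.ker * Nat.card φ.range := by
    rw [← Subgroup.index_ker, Subgroup.card_mul_index]
  have hcongr : Nat.card φ.ker = Nat.card (N ⊓ Subgroup.centralizer ({u} : Set G) : Subgroup G) := by
    apply Nat.card_congr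
    exact
      { toFun := fun x => ⟨x.1.1, ⟨x.1.2, Subgroup.mem_centralizer_singleton_iff.mpr ((hker x.1).mp x.2)⟩⟩
        invFun := fun y => ⟨⟨y.1, y.2.1⟩, (hker _).mpr (Subgroup.mem_centralizer_singleton_iff.mp y.2.2)⟩
        left_inv := fun x => rfl
        right_inv := fun y => rfl }
  rw [← hcongr, hcard, sq]
  exact Nat.mul_lt_mul_of_pos_left hlt Nat.card_pos

/-- For `p = 2` and `N = O_2(G)`, the index of `N` is odd. -/
theorem coprime_two (hG : 2 < Nat.card G) (D : Data χ a) {N : Subgroup G} [hNn : N.Normal]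
    (hN : ∀ g, g ∈ N ↔ χ g ≠ 0) (hNp : IsPGroup 2 N) (hcore : N = pCore 2 G) :
    (Nat.card N).Coprime N.index := by
  classical
  haveI : Fact (Nat.Prime 2) := ⟨Nat.prime_two⟩
  have hCN := mem_of_centralizes hG D hN hNp hcore
  obtain ⟨k, hk⟩ := hNp.exists_card_eq
  rw [hk]
  apply Nat.Coprime.pow_left
  rw [Nat.Prime.coprime_iff_not_dvd Nat.prime_two]
  intro hdvd
  rw [Subgroup.index_eq_card] at hdvd
  obtain ⟨y', hy'⟩ := exists_prime_orderOf_dvd_card' 2 hdvd
  obtain ⟨y, rfl⟩ := QuotientGroup.mk_surjective y'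
  have hyN : y ∉ N := by
    intro h
    rw [(QuotientGroup.eq_one_iff y).mpr h, orderOf_one] at hy'
    omega
  have hy2 : y * y ∈ N := by
    rw [← QuotientGroup.eq_one_iff, QuotientGroup.mk_mul, ← sq, ← hy', pow_orderOf_eq_one]
  have key : ∀ g : G, IsPGroup 2 ↥(Subgroup.zpowers y ⊔ (Subgroup.zpowers y).map (MulAut.conj g).toMonoidHom) := by
    intro g
    have hv : g * y * g⁻¹ ∉ N := by
      intro h
      apply hyN
      have := hNn.conj_mem _ h g⁻¹
      have h2 : g⁻¹ * (g * y * g⁻¹) * g⁻¹⁻¹ = y := by group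
      rwa [h2] at this
    have hv2 : g * y * g⁻¹ * (g * y * g⁻¹) ∈ N := by
      have := hNn.conj_mem _ hy2 g
      have h2 : g * (y * y) * g⁻¹ = g * y * g⁻¹ * (g * y * g⁻¹) := by group
      rwa [h2] at this
    obtain ⟨x, hx1, hx2, hx3⟩ := exists_ne_one_of_card (inf_le_left) (inf_le_left)
      (card_lt_sq hG D hN hNp hCN hyN hy2) (card_lt_sq hG D hN hNp hCN hv hv2)
    have D' := D.of_ne hx3 ((hN x).mp hx1.1)
    obtain ⟨h1, _⟩ := centralizer_sylow hG D' hN hNp
    apply h1.to_le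
    rw [MonoidHom.map_zpowers]
    apply sup_le
    · rw [Subgroup.zpowers_le, Subgroup.mem_centralizer_singleton_iff]
      exact (Subgroup.mem_centralizer_singleton_iff.mp hx1.2).symm
    · rw [Subgroup.zpowers_le, Subgroup.mem_centralizer_singleton_iff]
      exact (Subgroup.mem_centralizer_singleton_iff.mp hx2.2).symm
  have hX : IsPGroup 2 (Subgroup.zpowers y) := (key 1).to_le le_sup_left
  obtain ⟨M, hMn, hMp, hM⟩ := Cfsg.Agent.S0199.result (Subgroup.zpowers y) hX key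
  have h1 := Cfsg.Agent.Lib.Helper12.le_pCore hMn hMp
  rw [← hcore] at h1
  exact hyN (h1 (hM (Subgroup.mem_zpowers y)))

/-- `N = O_p(G)` forces a complement. -/
theorem exists_complement (hG : 2 < Nat.card G) (D : Data χ a) {N : Subgroup G} [hNn : N.Normal]
    (hN : ∀ g, g ∈ N ↔ χ g ≠ 0) {p : ℕ} [hp : Fact p.Prime] (hNp : IsPGroup p N) (hcore : N = pCore p G) :
    ∃ C : Subgroup G, (∀ x ∈ N, x ∈ C → x = 1) ∧ (∀ g : G, ∃ n ∈ N, ∃ c ∈ C, g = n * c) := by
  by_cases hp2 : p = 2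
  · subst hp2
    obtain ⟨C, hC⟩ := Subgroup.exists_right_complement'_of_coprime (coprime_two hG D hN hNp hcore)
    refine ⟨C, ?_, ?_⟩
    · intro x hx hxC
      have := hC.disjoint.le_bot ⟨hx, hxC⟩
      exact Subgroup.mem_bot.mp this
    · intro g
      have h1 : g ∈ (N : Set G) * (C : Set G) := by
        rw [Subgroup.IsComplement.mul_eq hC]
        exact Set.mem_univ g
      obtain ⟨n, hn, c, hc, rfl⟩ := Set.mem_mul.mp h1
      exact ⟨n, hn, c, hc, rfl⟩
  · exact exists_complement_odd hG D hN hNp hp2 (mem_of_centralizes hG D hN hNp hcore)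

end Gagola
end Cfsg.Agent.Lib.Helper25
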