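import Cfsg.Agent.Lib.Helper24.Zeros

set_option autoImplicit false
open Cfsg

namespace Cfsg.Agent.Lib.Helper25

open Cfsg.Agent.Lib.Helper2 Cfsg.Agent.Lib.Helper6 Cfsg.Agent.Lib.Helper24
open scoped ComplexConjugate

variable {G : Type*} [Group G] [Fintype G]

/-- On a subset closed under the Galois power maps, the sum of `|χ|²` is at least the number of non-zeros. -/
theorem card_nonzero_le_sum {χ : G → ℂ} (hχ : IsCharacter G χ) (S : G → Prop) [DecidablePred S]
    [DecidablePred fun g : G => χ g = 0]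
    (hS : ∀ x, ∀ k : (ZMod (Nat.card G))ˣ, S x → S (x ^ (k : ZMod (Nat.card G)).val)) :
    ((Finset.univ.filter (fun x : G => S x ∧ ¬ χ x = 0)).card : ℝ) ≤ ∑ x : G, if S x then ‖χ x‖ ^ 2 else 0 := by
  classical
  have : NeZero (Nat.card G) := ⟨Nat.card_pos.ne'⟩
  obtain ⟨φ, hφ⟩ : ∃ φ : ℝ, φ = (Fintype.card (ZMod (Nat.card G))ˣ : ℝ) := ⟨_, rfl⟩
  have hφpos : 0 < φ := by
    rw [hφ]; exact_mod_cast Fintype.card_pos
  have hxn : ∀ x : G, x ^ (Nat.card G) = 1 := fun x => pow_card_eq_one'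
  have hsum := sum_sum_pow_units (G := G) (fun g => if S g then ‖χ g‖ ^ 2 else 0)
  rw [← hφ] at hsum
  have hW : ∀ x : G, φ * (if S x ∧ ¬ χ x = 0 then 1 else 0) ≤
      ∑ k : (ZMod (Nat.card G))ˣ, (fun g => if S g then ‖χ g‖ ^ 2 else 0) (x ^ (k : ZMod (Nat.card G)).val) := by
    intro x
    by_cases h1 : S x ∧ ¬ χ x = 0
    · rw [if_pos h1, mul_one, hφ]
      refine (card_units_le_sum_norm_sq hχ x (Nat.card G) (hxn x) h1.2).trans (le_of_eq ?_)
      refine Finset.sum_congr rfl fun k _ => ?_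
      simp only
      rw [if_pos (hS x k h1.1)]
    · rw [if_neg h1, mul_zero]
      refine Finset.sum_nonneg fun k _ => ?_
      simp only
      split_ifs
      · positivity
      · exact le_refl _
  have h3 := Finset.sum_le_sum (s := Finset.univ) fun x _ => hW x
  rw [hsum, ← Finset.mul_sum] at h3
  have h4 := le_of_mul_le_mul_left h3 hφpos
  rw [← Finset.sum_filter, Finset.sum_const, nsmul_eq_mul, mul_one] at h4
  exact h4

theorem pow_unit_not_mem (H : Subgroup G) (x : G) (k : (ZMod (Nat.card G))ˣ) (hx : x ∉ H) :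
    x ^ (k : ZMod (Nat.card G)).val ∉ H := by
  intro h
  apply hx
  have hcop : Nat.Coprime (k : ZMod (Nat.card G)).val (Nat.card G) := ZMod.val_coe_unit_coprime k
  have hcop' : Nat.Coprime (k : ZMod (Nat.card G)).val (orderOf x) :=
    Nat.Coprime.coprime_dvd_right (orderOf_dvd_natCard x) hcop
  obtain ⟨m, hm⟩ := exists_pow_eq_self_of_coprime hcop'
  rw [← hm]
  exact H.pow_mem h m

end Cfsg.Agent.Lib.Helper25
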