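import Mathlib
import Cfsg.Agent.Lib.Helper25.RelGlaub1

/-!
# Relative Glauberman correspondence: the invariant case (Gallagher + Glauberman)
-/

set_option autoImplicit false

namespace Cfsg.Agent.Lib.Helper25.RelGlaub

open Cfsg Cfsg.Agent.Lib.Helper2 Cfsg.Agent.Lib.Helper6 Cfsg.Agent.Lib.Helper24
open Cfsg.Agent.Lib.Helper13 Cfsg.Agent.Lib.Lead.Glaub
open scoped ComplexConjugate

attribute [local instance] irrFintype

section ext

variable {S : Type*} [Group S] [Fintype S]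

theorem classInner_mul_ext (M : Subgroup S) [M.Normal] [Fintype M] {Θ : S → ℂ}
    (hΘ : IsIrrCharacter S Θ) (hΘM : IsIrrCharacter M (fun m : M => Θ m)) (a b : S → ℂ)
    (ha : ∀ (m : M) s, a ((m : S) * s) = a s) (hb : ∀ (m : M) s, b ((m : S) * s) = b s) :
    classInner (a * Θ) (b * Θ) = classInner a b := by
  have h1 := (Cfsg.Agent.S0868.result M Θ hΘ hΘM Θ hΘ _ rfl).2.2 rfl
  have hcM : (Nat.card M : ℂ) ≠ 0 := by
    exact_mod_cast (Nat.card_pos (α := M)).ne'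
  have h2 : ∀ g : S, ∑ n : M, Θ ((n : S) * g) * conj (Θ ((n : S) * g)) = (Nat.card M : ℂ) := by
    intro g
    have := congrFun h1 g
    field_simp at this
    exact this
  unfold classInner
  congr 1
  apply mul_left_cancel₀ hcM
  set W : S → ℂ := fun s => (a * Θ) s * conj ((b * Θ) s) with hW
  have h3 : (Nat.card M : ℂ) * ∑ s, W s = ∑ n : M, ∑ s : S, W ((n : S) * s) := by
    have : ∀ n : M, ∑ s : S, W ((n : S) * s) = ∑ s, W s := by
      intro n
      exact Fintype.sum_equiv (Equiv.mulLeft (n : S)) _ _ (fun s => rfl)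
    rw [Finset.sum_congr rfl (fun n _ => this n), Finset.sum_const, nsmul_eq_mul,
      Finset.card_univ, Nat.card_eq_fintype_card]
  rw [h3, Finset.sum_comm, Finset.mul_sum]
  refine Finset.sum_congr rfl fun s _ => ?_
  have h4 : ∀ n : M, W ((n : S) * s)
      = (a s * conj (b s)) * (Θ ((n : S) * s) * conj (Θ ((n : S) * s))) := by
    intro n
    simp only [hW, Pi.mul_apply, map_mul, ha, hb]
    ring
  rw [Finset.sum_congr rfl (fun n _ => h4 n), ← Finset.mul_sum, h2]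
  ring

end ext

section param

variable {G : Type*} [Group G] [Fintype G] (N : Subgroup G) [N.Normal] [Fintype N] {Θ : G → ℂ}

theorem param (hΘ : IsIrrCharacter G Θ) (hΘN : IsIrrCharacter N (fun n : N => Θ n))
    (ψ : IrrCharacter G)
    (hov : classInner (fun n : N => (ψ : G → ℂ) n) (fun n : N => Θ n) ≠ 0) :
    ∃ β : IrrCharacter (G ⧸ N),
      (ψ : G → ℂ) = (fun t : G => (β : G ⧸ N → ℂ) (t : G ⧸ N)) * Θ := by
  obtain ⟨b, ⟨hb1, hb2⟩, hb3⟩ := (gallagher N hΘ hΘN).surjOn ⟨ψ.2, hov⟩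
  obtain ⟨β, hβ, hβ'⟩ := IsIrrCharacter.deflate N hb1 hb2
  refine ⟨⟨β, hβ⟩, ?_⟩
  rw [← hb3]
  funext t
  show b t * Θ t = β (t : G ⧸ N) * Θ t
  rw [hβ']

theorem infl_mem (β : IrrCharacter (G ⧸ N)) :
    (fun t : G => (β : G ⧸ N → ℂ) (t : G ⧸ N)) ∈
      {β : G → ℂ | Cfsg.IsIrrCharacter G β ∧ ∀ n ∈ N, β n = β 1} := by
  refine ⟨IsIrrCharacter.inflate N β.2, fun n hn => ?_⟩
  show (β : G ⧸ N → ℂ) (n : G ⧸ N) = (β : G ⧸ N → ℂ) ((1 : G) : G ⧸ N)
  rw [(QuotientGroup.eq_one_iff n).mpr hn]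
  rfl

theorem param_irr (hΘ : IsIrrCharacter G Θ) (hΘN : IsIrrCharacter N (fun n : N => Θ n))
    (β : IrrCharacter (G ⧸ N)) :
    IsIrrCharacter G ((fun t : G => (β : G ⧸ N → ℂ) (t : G ⧸ N)) * Θ) ∧
      classInner (fun n : N => ((fun t : G => (β : G ⧸ N → ℂ) (t : G ⧸ N)) * Θ) n)
        (fun n : N => Θ n) ≠ 0 :=
  (gallagher N hΘ hΘN).mapsTo (infl_mem N β)

theorem param_inj (hΘ : IsIrrCharacter G Θ) (hΘN : IsIrrCharacter N (fun n : N => Θ n))
    (β β' : IrrCharacter (G ⧸ N))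
    (h : (fun t : G => (β : G ⧸ N → ℂ) (t : G ⧸ N)) * Θ
      = (fun t : G => (β' : G ⧸ N → ℂ) (t : G ⧸ N)) * Θ) : β = β' := by
  have h1 := (gallagher N hΘ hΘN).injOn (infl_mem N β) (infl_mem N β') h
  apply Subtype.ext
  funext c
  obtain ⟨t, rfl⟩ := QuotientGroup.mk_surjective c
  exact congrFun h1 t

end param

section base

variable {T S R : Type*} [Group T] [Fintype T] [Group S] [Fintype S] [Group R]

/-- the data of the invariant case -/
structure Base (p : ℕ) (j : S →* T) (N : Subgroup T) (M : Subgroup S) (φ : R →* MulAut T)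
    (Θ : T → ℂ) : Prop where
  inj : Function.Injective j
  memM : ∀ s, s ∈ M ↔ j s ∈ N
  stab : ∀ r, ∀ n ∈ N, φ r n ∈ N
  idx : ¬ p ∣ N.index
  pgrp : IsPGroup p R
  range : ∀ t, t ∈ j.range ↔ ∀ r, φ r t * t⁻¹ ∈ N
  irr : IsIrrCharacter T Θ
  irrN : IsIrrCharacter N (fun n : N => Θ n)
  inv : Inv φ Θ

variable {p : ℕ} {j : S →* T} {N : Subgroup T} {M : Subgroup S} {φ : R →* MulAut T} {Θ : T → ℂ}

theorem Base.le_range (h : Base p j N M φ Θ) : N ≤ j.range := by
  intro n hn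
  rw [h.range]
  intro r
  exact N.mul_mem (h.stab r n hn) (N.inv_mem hn)

/-- `M ≃* N` -/
noncomputable def Base.equivMN (h : Base p j N M φ Θ) : M ≃* N :=
  MulEquiv.ofBijective
    ({ toFun := fun m => ⟨j m, (h.memM m).mp m.2⟩
       map_one' := Subtype.ext (by simp)
       map_mul' := fun a b => Subtype.ext (by simp) } : M →* N)
    ⟨fun a b hab => Subtype.ext (h.inj (congrArg Subtype.val hab)), fun n => by
      obtain ⟨s, hs⟩ := h.le_range n.2
      exact ⟨⟨s, (h.memM s).mpr (by rw [hs]; exact n.2)⟩, Subtype.ext hs⟩⟩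

variable [Fintype N] [Fintype M]

theorem Base.irrM (h : Base p j N M φ Θ) : IsIrrCharacter M (fun m : M => Θ (j m)) :=
  isIrrCharacter_comp_equiv h.irrN h.equivMN

theorem Base.irrS (h : Base p j N M φ Θ) : IsIrrCharacter S (fun s => Θ (j s)) :=
  isIrrCharacter_of_restrict M (IsCharacter.comp_hom j (IsIrrCharacter.isCharacter h.irr)) h.irrM

variable [N.Normal] [M.Normal]

/-- the map of quotients -/
def Base.qmap (h : Base p j N M φ Θ) : S ⧸ M →* T ⧸ N :=
  QuotientGroup.map M N j (fun s hs => (h.memM s).mp hs)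

theorem Base.qmap_mk (h : Base p j N M φ Θ) (s : S) : h.qmap (s : S ⧸ M) = ((j s : T) : T ⧸ N) :=
  rfl

theorem Base.qmap_injective (h : Base p j N M φ Θ) : Function.Injective h.qmap := by
  rw [injective_iff_map_eq_one]
  intro c hc
  obtain ⟨s, rfl⟩ := QuotientGroup.mk_surjective c
  rw [h.qmap_mk, QuotientGroup.eq_one_iff] at hc
  exact (QuotientGroup.eq_one_iff s).mpr ((h.memM s).mpr hc)

theorem Base.qmap_fix (h : Base p j N M φ Θ) (g : T ⧸ N) :
    (∀ r, quotAct φ N h.stab r g = g) ↔ g ∈ h.qmap.range := by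
  obtain ⟨t, rfl⟩ := QuotientGroup.mk_surjective g
  constructor
  · intro hfix
    have ht : t ∈ j.range := by
      rw [h.range]
      intro r
      have h1 := hfix r
      rw [quotAct_mk] at h1
      have h2 : t⁻¹ * φ r t ∈ N := QuotientGroup.eq.mp h1.symm
      have h3 := (inferInstance : N.Normal).conj_mem _ h2 t
      have e : t * (t⁻¹ * φ r t) * t⁻¹ = φ r t * t⁻¹ := by group
      rwa [e] at h3
    obtain ⟨s, rfl⟩ := ht
    exact ⟨(s : S ⧸ M), rfl⟩
  · rintro ⟨c, hc⟩ r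
    obtain ⟨s, rfl⟩ := QuotientGroup.mk_surjective c
    rw [h.qmap_mk] at hc
    rw [← hc, quotAct_mk]
    have h1 := (h.range (j s)).mp ⟨s, rfl⟩ r
    apply Eq.symm
    rw [QuotientGroup.eq]
    have h3 := (inferInstance : N.Normal).conj_mem _ h1 (j s)⁻¹
    have e : (j s)⁻¹ * (φ r (j s) * (j s)⁻¹) * (j s)⁻¹⁻¹ = (j s)⁻¹ * φ r (j s) := by group
    rwa [e] at h3

theorem Base.corr [Finite R] [Fintype (T ⧸ N)] [Fintype (S ⧸ M)] (hp : p.Prime)
    (h : Base p j N M φ Θ) : Corr p (quotAct φ N h.stab) h.qmap := by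
  apply Cfsg.Agent.Lib.Lead.Glaub.corr hp h.qmap_injective h.qmap_fix h.pgrp
  haveI : Fact p.Prime := ⟨hp⟩
  obtain ⟨n, hn⟩ := h.pgrp.exists_card_eq
  rw [hn]
  apply Nat.Coprime.pow_right
  have : Nat.card (T ⧸ N) = N.index := rfl
  rw [this]
  exact ((Nat.Prime.coprime_iff_not_dvd hp).mpr h.idx).symm

end base

end Cfsg.Agent.Lib.Helper25.RelGlaub
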