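import Mathlib
import Cfsg.Agent.Lib.Helper25.RelGlaub2

/-!
# Relative Glauberman correspondence: the invariant case, conclusions
-/

set_option autoImplicit false

namespace Cfsg.Agent.Lib.Helper25.RelGlaub

open Cfsg Cfsg.Agent.Lib.Helper2 Cfsg.Agent.Lib.Helper6 Cfsg.Agent.Lib.Helper24
open Cfsg.Agent.Lib.Helper13 Cfsg.Agent.Lib.Lead.Glaub
open scoped ComplexConjugate

attribute [local instance] irrFintype

section base

variable {T S R : Type*} [Group T] [Fintype T] [Group S] [Fintype S] [Group R]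
variable {p : ℕ} {j : S →* T} {N : Subgroup T} {M : Subgroup S} {φ : R →* MulAut T} {Θ : T → ℂ}
variable [Fintype N] [Fintype M] [N.Normal] [M.Normal]

theorem Base.inv_iff (h : Base p j N M φ Θ) (β : IrrCharacter (T ⧸ N)) :
    Inv φ ((fun t : T => (β : T ⧸ N → ℂ) (t : T ⧸ N)) * Θ) ↔
      Inv (quotAct φ N h.stab) (β : T ⧸ N → ℂ) := by
  classical
  haveI : Fintype (T ⧸ N) := Fintype.ofFinite _
  constructor
  · intro hinv r c
    let βr : IrrCharacter (T ⧸ N) :=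
      ⟨(β : T ⧸ N → ℂ) ∘ (quotAct φ N h.stab r), IsIrrCharacter.comp_mulEquiv β.2 _⟩
    have e : (fun t : T => (βr : T ⧸ N → ℂ) (t : T ⧸ N)) * Θ
        = (fun t : T => (β : T ⧸ N → ℂ) (t : T ⧸ N)) * Θ := by
      funext t
      have h1 := hinv r t
      show (β : T ⧸ N → ℂ) (quotAct φ N h.stab r (t : T ⧸ N)) * Θ t = _
      rw [quotAct_mk, ← h.inv r t]
      exact h1
    have h2 := param_inj N h.irr h.irrN βr β e
    exact congrFun (congrArg Subtype.val h2) c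
  · intro hinv r t
    show (β : T ⧸ N → ℂ) ((φ r t : T) : T ⧸ N) * Θ (φ r t) = (β : T ⧸ N → ℂ) (t : T ⧸ N) * Θ t
    rw [h.inv r t, ← quotAct_mk φ N h.stab, hinv r]

theorem Base.inner_formula [Fintype (T ⧸ N)] [Fintype (S ⧸ M)] (h : Base p j N M φ Θ)
    (β : IrrCharacter (T ⧸ N)) (γ : IrrCharacter (S ⧸ M)) :
    classInner (fun s => ((fun t : T => (β : T ⧸ N → ℂ) (t : T ⧸ N)) * Θ) (j s))
      ((fun s : S => (γ : S ⧸ M → ℂ) (s : S ⧸ M)) * (fun s => Θ (j s)))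
      = classInner ((β : T ⧸ N → ℂ) ∘ h.qmap) (γ : S ⧸ M → ℂ) := by
  have e : (fun s => ((fun t : T => (β : T ⧸ N → ℂ) (t : T ⧸ N)) * Θ) (j s))
      = (fun s : S => ((β : T ⧸ N → ℂ) ∘ h.qmap) (s : S ⧸ M)) * (fun s => Θ (j s)) := rfl
  rw [e, classInner_mul_ext M h.irrS h.irrM, classInner_inflate]
  · intro m s
    show ((β : T ⧸ N → ℂ) ∘ h.qmap) (((m : S) * s : S) : S ⧸ M) = _
    rw [QuotientGroup.mk_mul, (QuotientGroup.eq_one_iff (m : S)).mpr m.2, one_mul]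
  · intro m s
    show (γ : S ⧸ M → ℂ) (((m : S) * s : S) : S ⧸ M) = _
    rw [QuotientGroup.mk_mul, (QuotientGroup.eq_one_iff (m : S)).mpr m.2, one_mul]

/-- every character over `Θ` downstairs is invariant -/
theorem Base.inv_down (h : Base p j N M φ Θ) (η : IrrCharacter S)
    (hov : classInner (fun m : M => (η : S → ℂ) m) (fun m : M => Θ (j m)) ≠ 0)
    (r : R) (a a' : S) (haa : j a' = φ r (j a)) : (η : S → ℂ) a' = (η : S → ℂ) a := by
  obtain ⟨γ, hγ⟩ := param M h.irrS h.irrM η hov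
  rw [hγ]
  show (γ : S ⧸ M → ℂ) (a' : S ⧸ M) * Θ (j a') = (γ : S ⧸ M → ℂ) (a : S ⧸ M) * Θ (j a)
  rw [haa, h.inv r]
  have hq : (a : S ⧸ M) = (a' : S ⧸ M) := by
    rw [QuotientGroup.eq, h.memM, map_mul, map_inv, haa]
    have h1 := (h.range (j a)).mp ⟨a, rfl⟩ r
    have h3 := (inferInstance : N.Normal).conj_mem _ h1 (j a)⁻¹
    have e : (j a)⁻¹ * (φ r (j a) * (j a)⁻¹) * (j a)⁻¹⁻¹ = (j a)⁻¹ * φ r (j a) := by group
    rwa [e] at h3
  rw [hq]

theorem Base.dummy (h : Base p j N M φ Θ) (r : R) (a : S) : (j a)⁻¹ * φ r (j a) ∈ N := by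
  have h1 := (h.range (j a)).mp ⟨a, rfl⟩ r
  have h3 := (inferInstance : N.Normal).conj_mem _ h1 (j a)⁻¹
  have e : (j a)⁻¹ * (φ r (j a) * (j a)⁻¹) * (j a)⁻¹⁻¹ = (j a)⁻¹ * φ r (j a) := by group
  rwa [e] at h3

variable [Finite R]

theorem Base.exists_down (hp : p.Prime) (h : Base p j N M φ Θ) (ψ : IrrCharacter T)
    (hov : classInner (fun n : N => (ψ : T → ℂ) n) (fun n : N => Θ n) ≠ 0)
    (hinv : Inv φ (ψ : T → ℂ)) :
    ∃ η : IrrCharacter S, classInner (fun m : M => (η : S → ℂ) m) (fun m : M => Θ (j m)) ≠ 0 ∧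
      (∃ m : ℕ, classInner (fun s => (ψ : T → ℂ) (j s)) (η : S → ℂ) = m ∧
        ((m : ℤ) ≡ 1 [ZMOD p] ∨ (m : ℤ) ≡ -1 [ZMOD p])) ∧
      ∀ η' : IrrCharacter S,
        classInner (fun m : M => (η' : S → ℂ) m) (fun m : M => Θ (j m)) ≠ 0 → η' ≠ η →
        ∃ m : ℕ, classInner (fun s => (ψ : T → ℂ) (j s)) (η' : S → ℂ) = m ∧ p ∣ m := by
  classical
  haveI : Fintype (T ⧸ N) := Fintype.ofFinite _
  haveI : Fintype (S ⧸ M) := Fintype.ofFinite _
  obtain ⟨c1, c2, -, -⟩ := h.corr hp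
  obtain ⟨β, hβ⟩ := param N h.irr h.irrN ψ hov
  have hβinv : Inv (quotAct φ N h.stab) (β : T ⧸ N → ℂ) := by
    rw [← h.inv_iff, ← hβ]
    exact hinv
  obtain ⟨γ, ⟨m, hm1, hm2⟩, huniq⟩ := c1 β hβinv
  have hirr := param_irr M h.irrS h.irrM γ
  refine ⟨⟨_, hirr.1⟩, hirr.2, ⟨m, ?_, c2 β hβinv γ m hm1 hm2⟩, ?_⟩
  · rw [hβ]
    exact (h.inner_formula β γ).trans hm1
  · intro η' hov' hne
    obtain ⟨γ', hγ'⟩ := param M h.irrS h.irrM η' hov'
    obtain ⟨m', hm'⟩ := IsCharacter.classInner_nat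
      (IsCharacter.comp_hom h.qmap (IsIrrCharacter.isCharacter β.2))
      (IsIrrCharacter.isCharacter γ'.2)
    refine ⟨m', ?_, ?_⟩
    · rw [hβ, hγ']
      exact (h.inner_formula β γ').trans hm'
    · by_contra hnd
      have := huniq γ' ⟨m', hm', hnd⟩
      apply hne
      apply Subtype.ext
      rw [hγ', this]

theorem Base.inj_up (hp : p.Prime) (h : Base p j N M φ Θ) (ψ ψ' : IrrCharacter T)
    (hov : classInner (fun n : N => (ψ : T → ℂ) n) (fun n : N => Θ n) ≠ 0)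
    (hinv : Inv φ (ψ : T → ℂ))
    (hov' : classInner (fun n : N => (ψ' : T → ℂ) n) (fun n : N => Θ n) ≠ 0)
    (hinv' : Inv φ (ψ' : T → ℂ)) (η : IrrCharacter S)
    (hη : classInner (fun m : M => (η : S → ℂ) m) (fun m : M => Θ (j m)) ≠ 0) (m m' : ℕ)
    (hm : classInner (fun s => (ψ : T → ℂ) (j s)) (η : S → ℂ) = m) (hmp : ¬ p ∣ m)
    (hm' : classInner (fun s => (ψ' : T → ℂ) (j s)) (η : S → ℂ) = m') (hmp' : ¬ p ∣ m') :
    ψ = ψ' := by
  classical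
  haveI : Fintype (T ⧸ N) := Fintype.ofFinite _
  haveI : Fintype (S ⧸ M) := Fintype.ofFinite _
  obtain ⟨-, -, c3, -⟩ := h.corr hp
  obtain ⟨β, hβ⟩ := param N h.irr h.irrN ψ hov
  obtain ⟨β', hβ'⟩ := param N h.irr h.irrN ψ' hov'
  obtain ⟨γ, hγ⟩ := param M h.irrS h.irrM η hη
  have hβinv : Inv (quotAct φ N h.stab) (β : T ⧸ N → ℂ) := by
    rw [← h.inv_iff, ← hβ]
    exact hinv
  have hβinv' : Inv (quotAct φ N h.stab) (β' : T ⧸ N → ℂ) := by
    rw [← h.inv_iff, ← hβ']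
    exact hinv'
  rw [hβ, hγ] at hm
  rw [hβ', hγ] at hm'
  have := c3 β β' hβinv hβinv' γ m m' ((h.inner_formula β γ).symm.trans hm) hmp
    ((h.inner_formula β' γ).symm.trans hm') hmp'
  apply Subtype.ext
  rw [hβ, hβ', this]

theorem Base.exists_up (hp : p.Prime) (h : Base p j N M φ Θ) (η : IrrCharacter S)
    (hη : classInner (fun m : M => (η : S → ℂ) m) (fun m : M => Θ (j m)) ≠ 0) :
    ∃ ψ : IrrCharacter T, classInner (fun n : N => (ψ : T → ℂ) n) (fun n : N => Θ n) ≠ 0 ∧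
      Inv φ (ψ : T → ℂ) ∧
      ∃ m : ℕ, classInner (fun s => (ψ : T → ℂ) (j s)) (η : S → ℂ) = m ∧ ¬ p ∣ m := by
  classical
  haveI : Fintype (T ⧸ N) := Fintype.ofFinite _
  haveI : Fintype (S ⧸ M) := Fintype.ofFinite _
  obtain ⟨-, -, -, c4⟩ := h.corr hp
  obtain ⟨γ, hγ⟩ := param M h.irrS h.irrM η hη
  obtain ⟨β, hβinv, m, hm1, hm2⟩ := c4 γ
  have hirr := param_irr N h.irr h.irrN β
  refine ⟨⟨_, hirr.1⟩, hirr.2, (h.inv_iff β).mpr hβinv, m, ?_, hm2⟩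
  rw [hγ]
  exact (h.inner_formula β γ).trans hm1

end base

end Cfsg.Agent.Lib.Helper25.RelGlaub
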