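import Mathlib
import Cfsg.Agent.Lib.Helper25.RelGlaub3
import Cfsg.Agent.Lib.Helper25.RelGlaub5

/-!
# Relative Glauberman correspondence: two groups
-/

set_option autoImplicit false

namespace Cfsg.Agent.Lib.Helper25.RelGlaub

open Cfsg Cfsg.Agent.Lib.Helper2 Cfsg.Agent.Lib.Helper6 Cfsg.Agent.Lib.Helper24
open Cfsg.Agent.Lib.Helper13 Cfsg.Agent.Lib.Lead.Glaub
open scoped ComplexConjugate Classical

attribute [local instance] irrFintype

section two

variable {X Y R : Type*} [Group X] [Fintype X] [Group Y] [Fintype Y] [Group R]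

/-- the global data -/
structure Setup (p : ℕ) (ι : Y →* X) (N : Subgroup X) (M : Subgroup Y) (φX : R →* MulAut X)
    (φY : R →* MulAut Y) : Prop where
  inj : Function.Injective ι
  memM : ∀ y, y ∈ M ↔ ι y ∈ N
  stab : ∀ r, ∀ n ∈ N, φX r n ∈ N
  compat : ∀ r y, ι (φY r y) = φX r (ι y)
  idx : ¬ p ∣ N.index
  pN : IsPGroup p N
  pgrp : IsPGroup p R
  range : ∀ x, x ∈ ι.range ↔ ∀ r, φX r x * x⁻¹ ∈ N

variable {p : ℕ} {ι : Y →* X} {N : Subgroup X} {M : Subgroup Y} {φX : R →* MulAut X}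
  {φY : R →* MulAut Y}

theorem Setup.stabM (h : Setup p ι N M φX φY) : ∀ r, ∀ m ∈ M, φY r m ∈ M := fun r m hm =>
  (h.memM _).mpr (by rw [h.compat]; exact h.stab r _ ((h.memM m).mp hm))

theorem Setup.le_range (h : Setup p ι N M φX φY) : N ≤ ι.range := by
  intro n hn
  rw [h.range]
  intro r
  exact N.mul_mem (h.stab r n hn) (N.inv_mem hn)

/-- `M ≃* N` -/
noncomputable def Setup.eMN (h : Setup p ι N M φX φY) : M ≃* N :=
  MulEquiv.ofBijective
    ({ toFun := fun m => ⟨ι m, (h.memM m).mp m.2⟩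
       map_one' := Subtype.ext (by simp)
       map_mul' := fun a b => Subtype.ext (by simp) } : M →* N)
    ⟨fun a b hab => Subtype.ext (h.inj (congrArg Subtype.val hab)), fun n => by
      obtain ⟨s, hs⟩ := h.le_range n.2
      exact ⟨⟨s, (h.memM s).mpr (by rw [hs]; exact n.2)⟩, Subtype.ext hs⟩⟩

/-- pull back of a function on `N` -/
def Setup.pull (h : Setup p ι N M φX φY) (θ : N → ℂ) : M → ℂ :=
  fun m => θ ⟨ι m, (h.memM m).mp m.2⟩

theorem Setup.pull_eq (h : Setup p ι N M φX φY) (θ : N → ℂ) : h.pull θ = θ ∘ h.eMN := rfl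

theorem Setup.pull_irr (h : Setup p ι N M φX φY) {θ : N → ℂ} (hθ : IsIrrCharacter N θ) :
    IsIrrCharacter M (h.pull θ) := isIrrCharacter_comp_equiv hθ h.eMN

theorem Setup.pull_injective (h : Setup p ι N M φX φY) : Function.Injective h.pull := by
  intro a b hab
  funext n
  obtain ⟨m, rfl⟩ := h.eMN.surjective n
  exact congrFun hab m

theorem Setup.pull_inv (h : Setup p ι N M φX φY) {θ : N → ℂ}
    (hθφ : Inv (resAct φX N h.stab) θ) : Inv (resAct φY M h.stabM) (h.pull θ) := by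
  intro r m
  have h1 := hθφ r ⟨ι m, (h.memM m).mp m.2⟩
  refine Eq.trans ?_ h1
  show θ _ = θ _
  congr 1
  exact Subtype.ext (h.compat r m)

variable [N.Normal] [M.Normal]

theorem Setup.conjFun_pull (h : Setup p ι N M φX φY) (θ : N → ℂ) (y : Y) :
    conjFun M y (h.pull θ) = h.pull (conjFun N (ι y) θ) := by
  funext m
  show θ _ = θ _
  congr 1
  apply Subtype.ext
  show ι (y⁻¹ * m * y) = (ι y)⁻¹ * ι m * ι y
  simp

theorem Setup.mem_inertia_iff (h : Setup p ι N M φX φY) (θ : N → ℂ) (y : Y) :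
    y ∈ inertia M (h.pull θ) ↔ ι y ∈ inertia N θ := by
  rw [mem_inertia, mem_inertia, h.conjFun_pull]
  exact ⟨fun e => h.pull_injective e, fun e => by rw [e]⟩

/-- the map of inertia groups -/
def Setup.jmap (h : Setup p ι N M φX φY) (θ : N → ℂ) :
    inertia M (h.pull θ) →* inertia N θ where
  toFun s := ⟨ι s, (h.mem_inertia_iff θ s).mp s.2⟩
  map_one' := Subtype.ext (by simp)
  map_mul' a b := Subtype.ext (by simp)

theorem Setup.base (h : Setup p ι N M φX φY) {θ : N → ℂ} (hθ : IsIrrCharacter N θ)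
    (hθφ : Inv (resAct φX N h.stab) θ) {Θ : inertia N θ → ℂ}
    (hΘ : IsIrrCharacter (inertia N θ) Θ)
    (hres : (fun n : N.subgroupOf (inertia N θ) => Θ n) = toSubgroupOf N (inertia N θ) θ)
    (hΘφ : Inv (resAct φX (inertia N θ) (inertia_stable φX N h.stab hθφ)) Θ) :
    Base p (h.jmap θ) (N.subgroupOf (inertia N θ)) (M.subgroupOf (inertia M (h.pull θ)))
      (resAct φX (inertia N θ) (inertia_stable φX N h.stab hθφ)) Θ where
  inj := fun a b hab => Subtype.ext (h.inj (congrArg Subtype.val hab))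
  memM := fun s => h.memM s
  stab := fun r n hn => by
    rw [Subgroup.mem_subgroupOf] at hn ⊢
    exact h.stab r _ hn
  idx := fun hd => h.idx (hd.trans (Subgroup.relIndex_dvd_index_of_normal N _))
  pgrp := h.pgrp
  range := fun t => by
    constructor
    · rintro ⟨s, rfl⟩ r
      rw [Subgroup.mem_subgroupOf]
      exact (h.range (ι s)).mp ⟨s, rfl⟩ r
    · intro ht
      have h1 : (t : X) ∈ ι.range := by
        rw [h.range]
        intro r
        exact Subgroup.mem_subgroupOf.mp (ht r)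
      obtain ⟨y, hy⟩ := h1
      exact ⟨⟨y, (h.mem_inertia_iff θ y).mpr (by rw [hy]; exact t.2)⟩, Subtype.ext hy⟩
  irr := hΘ
  irrN := by
    rw [hres]
    exact IsIrrCharacter.toSubgroupOf (le_inertia N hθ _ (mem_inertia N θ)) hθ
  inv := hΘφ

theorem Setup.down_eq (h : Setup p ι N M φX φY) {θ : N → ℂ} {Θ : inertia N θ → ℂ}
    (hres : (fun n : N.subgroupOf (inertia N θ) => Θ n) = toSubgroupOf N (inertia N θ) θ) :
    (fun m : M.subgroupOf (inertia M (h.pull θ)) => Θ (h.jmap θ m))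
      = toSubgroupOf M (inertia M (h.pull θ)) (h.pull θ) := by
  funext m
  have hm : h.jmap θ m ∈ N.subgroupOf (inertia N θ) := by
    rw [Subgroup.mem_subgroupOf]
    exact (h.memM _).mp (Subgroup.mem_subgroupOf.mp m.2)
  exact congrFun hres ⟨_, hm⟩

end two

end Cfsg.Agent.Lib.Helper25.RelGlaub
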