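import Mathlib
import Cfsg.Agent.Lib.Helper25.RelGlaub6

/-!
# Relative Glauberman correspondence: the correspondence over a fixed invariant `θ`
-/

set_option autoImplicit false

namespace Cfsg.Agent.Lib.Helper25.RelGlaub

open Cfsg Cfsg.Agent.Lib.Helper2 Cfsg.Agent.Lib.Helper6 Cfsg.Agent.Lib.Helper24
open Cfsg.Agent.Lib.Helper13 Cfsg.Agent.Lib.Lead.Glaub
open scoped ComplexConjugate Classical

attribute [local instance] irrFintype

section two

variable {X Y R : Type*} [Group X] [Fintype X] [Group Y] [Fintype Y] [Group R]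
variable {p : ℕ} {ι : Y →* X} {N : Subgroup X} {M : Subgroup Y} {φX : R →* MulAut X}
  {φY : R →* MulAut Y} [N.Normal] [M.Normal]

/-- a character of `T` whose restriction to `S` has a constituent over `θ` lies over `θ` -/
theorem Setup.ov_of_down (h : Setup p ι N M φX φY) {θ : N → ℂ} (hθ : IsIrrCharacter N θ)
    {φT : R →* MulAut (inertia N θ)} {Θ : inertia N θ → ℂ}
    (hb : Base p (h.jmap θ) (N.subgroupOf (inertia N θ)) (M.subgroupOf (inertia M (h.pull θ)))
      φT Θ)
    {ψ' : inertia N θ → ℂ} (hψ' : IsIrrCharacter (inertia N θ) ψ')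
    {η : inertia M (h.pull θ) → ℂ} (hη : IsIrrCharacter (inertia M (h.pull θ)) η)
    (hovη : OvT M (h.pull θ) η) (hc : classInner (fun s => ψ' (h.jmap θ s)) η ≠ 0) :
    OvT N θ ψ' := by
  have hMS : M ≤ inertia M (h.pull θ) := le_inertia M (h.pull_irr hθ) _ (mem_inertia M _)
  have h1 := constituent_trans (M.subgroupOf (inertia M (h.pull θ))).subtype
    (IsCharacter.comp_hom (h.jmap θ) (IsIrrCharacter.isCharacter hψ')) ⟨η, hη⟩
    ⟨_, IsIrrCharacter.toSubgroupOf hMS (h.pull_irr hθ)⟩ hc hovη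
  unfold OvT
  rw [← classInner_comp_equiv' hb.equivMN]
  exact h1

/-- the Clifford step -/
theorem Setup.cs (h : Setup p ι N M φX φY) {θ : N → ℂ} (hθ : IsIrrCharacter N θ)
    {φT : R →* MulAut (inertia N θ)} {Θ : inertia N θ → ℂ}
    (hb : Base p (h.jmap θ) (N.subgroupOf (inertia N θ)) (M.subgroupOf (inertia M (h.pull θ)))
      φT Θ)
    {ψ : inertia N θ → ℂ} (hψ : IsIrrCharacter (inertia N θ) ψ) (hov : OvT N θ ψ)
    {η : inertia M (h.pull θ) → ℂ} (hη : IsIrrCharacter (inertia M (h.pull θ)) η)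
    (hovη : OvT M (h.pull θ) η) :
    classInner (fun y => indFun (inertia N θ) ψ (ι y)) (indFun (inertia M (h.pull θ)) η)
      = classInner (fun s => ψ (h.jmap θ s)) η := by
  have hχ := cp_irr N hθ hψ hov
  have hf : IsClassFunction Y (fun y => indFun (inertia N θ) ψ (ι y)) :=
    IsCharacter.isClassFunction (IsCharacter.comp_hom ι (IsIrrCharacter.isCharacter hχ))
  rw [← inner_res_ind M hf]
  obtain ⟨n, hn⟩ := IsCharacter.exists_eq_sum
    (IsCharacter.restrict (inertia N θ) (IsIrrCharacter.isCharacter hχ))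
  have hnv : ∀ ψ' : IrrCharacter (inertia N θ),
      classInner (fun t : inertia N θ => indFun (inertia N θ) ψ t) (ψ' : inertia N θ → ℂ)
        = n ψ' := by
    intro ψ'
    conv_lhs => rw [hn]
    exact classInner_sum_irr_left _ ψ'
  have e : (fun t : inertia M (h.pull θ) => (fun y => indFun (inertia N θ) ψ (ι y)) t)
      = ∑ ψ' : IrrCharacter (inertia N θ),
        (n ψ' : ℂ) • (fun s => (ψ' : inertia N θ → ℂ) (h.jmap θ s)) := by
    funext s
    have := congrFun hn (h.jmap θ s)
    refine Eq.trans this ?_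
    simp [Finset.sum_apply]
  rw [e, classInner_sum_left, Finset.sum_eq_single (⟨ψ, hψ⟩ : IrrCharacter (inertia N θ))]
  · rw [classInner_smul_left]
    have h1 := hnv ⟨ψ, hψ⟩
    rw [inner_res_ind N (irr_isClassFunction hχ)] at h1
    simp only at h1
    rw [classInner_irr hχ hχ, if_pos rfl] at h1
    rw [← h1, one_mul]
  · intro ψ' _ hne
    rw [classInner_smul_left]
    by_cases h0 : n ψ' = 0
    · rw [h0]; simp
    · have h1 : classInner (fun t : inertia N θ => indFun (inertia N θ) ψ t)
          (ψ' : inertia N θ → ℂ) ≠ 0 := by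
        rw [hnv]
        exact_mod_cast h0
      have h2 := cp_other N hθ hψ hov ψ'.2 h1 (fun hh => hne (Subtype.ext hh))
      have h3 : classInner (fun s => (ψ' : inertia N θ → ℂ) (h.jmap θ s)) η = 0 := by
        by_contra hc
        exact h2 (h.ov_of_down hθ hb ψ'.2 hη hovη hc)
      rw [h3, mul_zero]
  · intro hh
    exact absurd (Finset.mem_univ _) hh

end two

end Cfsg.Agent.Lib.Helper25.RelGlaub
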