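import Mathlib
import Cfsg.Agent.Lib.Helper25.RelGlaub7

/-!
# Relative Glauberman correspondence: the correspondence over a fixed invariant `θ`, conclusions
-/

set_option autoImplicit false

namespace Cfsg.Agent.Lib.Helper25.RelGlaub

open Cfsg Cfsg.Agent.Lib.Helper2 Cfsg.Agent.Lib.Helper6 Cfsg.Agent.Lib.Helper24
open Cfsg.Agent.Lib.Helper13 Cfsg.Agent.Lib.Lead.Glaub
open scoped ComplexConjugate Classical

attribute [local instance] irrFintype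

section two

variable {X Y R : Type*} [Group X] [Fintype X] [Group Y] [Fintype Y] [Group R] [Finite R]
variable {p : ℕ} {ι : Y →* X} {N : Subgroup X} {M : Subgroup Y} {φX : R →* MulAut X}
  {φY : R →* MulAut Y} [N.Normal] [M.Normal]

theorem Setup.kl_down (hp : p.Prime) (h : Setup p ι N M φX φY) {θ : N → ℂ}
    (hθ : IsIrrCharacter N θ) (hθφ : Inv (resAct φX N h.stab) θ) (χ : IrrCharacter X)
    (hov : classInner (fun n : N => (χ : X → ℂ) n) θ ≠ 0) (hinv : Inv φX (χ : X → ℂ)) :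
    ∃ ξ : IrrCharacter Y, classInner (fun m : M => (ξ : Y → ℂ) m) (h.pull θ) ≠ 0 ∧
      Inv φY (ξ : Y → ℂ) ∧
      (∃ m : ℕ, classInner (fun y => (χ : X → ℂ) (ι y)) (ξ : Y → ℂ) = m ∧
        ((m : ℤ) ≡ 1 [ZMOD p] ∨ (m : ℤ) ≡ -1 [ZMOD p])) ∧
      ∀ ξ' : IrrCharacter Y, classInner (fun m : M => (ξ' : Y → ℂ) m) (h.pull θ) ≠ 0 → ξ' ≠ ξ →
        ∃ m : ℕ, classInner (fun y => (χ : X → ℂ) (ι y)) (ξ' : Y → ℂ) = m ∧ p ∣ m := by
  obtain ⟨Θ, hΘ, hres, hΘφ⟩ := exists_canonical φX N h.stab hp h.pN h.idx hθ hθφ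
  have hb := h.base hθ hθφ hΘ hres hΘφ
  have hdown := h.down_eq hres
  obtain ⟨ψ, hψ, hovψ, hind⟩ := cp_surj N hθ χ.2 hov
  have hψinv := cp_inv N φX h.stab hθ hθφ hψ hovψ (by rw [hind]; exact hinv)
  obtain ⟨η, hη1, ⟨m, hm1, hm2⟩, hη3⟩ := hb.exists_down hp ⟨ψ, hψ⟩
    (by rw [hres]; exact hovψ) hψinv
  have hη1' : OvT M (h.pull θ) (η : inertia M (h.pull θ) → ℂ) := by
    unfold OvT
    rw [← hdown]
    exact hη1
  have hθ' := h.pull_irr hθ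
  refine ⟨⟨indFun (inertia M (h.pull θ)) η, cp_irr M hθ' η.2 hη1'⟩, cp_over M hθ' η.2 hη1', ?_,
    ⟨m, ?_, hm2⟩, ?_⟩
  · apply inv_indFun φY _ (inertia_stable φY M h.stabM (h.pull_inv hθφ))
    intro r s
    exact hb.inv_down η hη1 r s _ (Subtype.ext (h.compat r s))
  · rw [← hind]
    exact (h.cs hθ hb hψ hovψ η.2 hη1').trans hm1
  · intro ξ' hov' hne
    obtain ⟨η', hη', hovη', hind'⟩ := cp_surj M hθ' ξ'.2 hov'
    obtain ⟨m', hm1', hm2'⟩ := hη3 ⟨η', hη'⟩ (by rw [hdown]; exact hovη') (by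
      intro hh
      apply hne
      apply Subtype.ext
      rw [← hind']
      show indFun (inertia M (h.pull θ)) η' = indFun (inertia M (h.pull θ)) η
      rw [← hh])
    refine ⟨m', ?_, hm2'⟩
    rw [← hind, ← hind']
    exact (h.cs hθ hb hψ hovψ hη' hovη').trans hm1'

theorem Setup.kl_inj (hp : p.Prime) (h : Setup p ι N M φX φY) {θ : N → ℂ}
    (hθ : IsIrrCharacter N θ) (hθφ : Inv (resAct φX N h.stab) θ) (χ χ' : IrrCharacter X)
    (hov : classInner (fun n : N => (χ : X → ℂ) n) θ ≠ 0) (hinv : Inv φX (χ : X → ℂ))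
    (hov' : classInner (fun n : N => (χ' : X → ℂ) n) θ ≠ 0) (hinv' : Inv φX (χ' : X → ℂ))
    (ξ : IrrCharacter Y) (hξ : classInner (fun m : M => (ξ : Y → ℂ) m) (h.pull θ) ≠ 0)
    (m m' : ℕ) (hm : classInner (fun y => (χ : X → ℂ) (ι y)) (ξ : Y → ℂ) = m) (hmp : ¬ p ∣ m)
    (hm' : classInner (fun y => (χ' : X → ℂ) (ι y)) (ξ : Y → ℂ) = m') (hmp' : ¬ p ∣ m') :
    χ = χ' := by
  obtain ⟨Θ, hΘ, hres, hΘφ⟩ := exists_canonical φX N h.stab hp h.pN h.idx hθ hθφ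
  have hb := h.base hθ hθφ hΘ hres hΘφ
  have hdown := h.down_eq hres
  have hθ' := h.pull_irr hθ
  obtain ⟨ψ, hψ, hovψ, hind⟩ := cp_surj N hθ χ.2 hov
  have hψinv := cp_inv N φX h.stab hθ hθφ hψ hovψ (by rw [hind]; exact hinv)
  obtain ⟨ψ', hψ', hovψ', hind'⟩ := cp_surj N hθ χ'.2 hov'
  have hψinv' := cp_inv N φX h.stab hθ hθφ hψ' hovψ' (by rw [hind']; exact hinv')
  obtain ⟨η, hη, hovη, hindη⟩ := cp_surj M hθ' ξ.2 hξ
  rw [← hind, ← hindη, h.cs hθ hb hψ hovψ hη hovη] at hm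
  rw [← hind', ← hindη, h.cs hθ hb hψ' hovψ' hη hovη] at hm'
  have := hb.inj_up hp ⟨ψ, hψ⟩ ⟨ψ', hψ'⟩ (by rw [hres]; exact hovψ) hψinv
    (by rw [hres]; exact hovψ') hψinv' ⟨η, hη⟩ (by rw [hdown]; exact hovη) m m' hm hmp hm' hmp'
  have this' : ψ = ψ' := congrArg Subtype.val this
  apply Subtype.ext
  rw [← hind, ← hind', this']

theorem Setup.kl_up (hp : p.Prime) (h : Setup p ι N M φX φY) {θ : N → ℂ}
    (hθ : IsIrrCharacter N θ) (hθφ : Inv (resAct φX N h.stab) θ)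
    (ξ : IrrCharacter Y) (hξ : classInner (fun m : M => (ξ : Y → ℂ) m) (h.pull θ) ≠ 0) :
    ∃ χ : IrrCharacter X, Inv φX (χ : X → ℂ) ∧
      ∃ m : ℕ, classInner (fun y => (χ : X → ℂ) (ι y)) (ξ : Y → ℂ) = m ∧ ¬ p ∣ m := by
  obtain ⟨Θ, hΘ, hres, hΘφ⟩ := exists_canonical φX N h.stab hp h.pN h.idx hθ hθφ
  have hb := h.base hθ hθφ hΘ hres hΘφ
  have hdown := h.down_eq hres
  have hθ' := h.pull_irr hθ
  obtain ⟨η, hη, hovη, hindη⟩ := cp_surj M hθ' ξ.2 hξ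
  obtain ⟨ψ, hovψ, hψinv, m, hm1, hm2⟩ := hb.exists_up hp ⟨η, hη⟩ (by rw [hdown]; exact hovη)
  have hovψ' : OvT N θ (ψ : inertia N θ → ℂ) := by
    unfold OvT
    rw [← hres]
    exact hovψ
  refine ⟨⟨indFun (inertia N θ) ψ, cp_irr N hθ ψ.2 hovψ'⟩,
    inv_indFun φX _ (inertia_stable φX N h.stab hθφ) hψinv, m, ?_, hm2⟩
  rw [← hindη]
  exact (h.cs hθ hb ψ.2 hovψ' hη hovη).trans hm1

end two

end Cfsg.Agent.Lib.Helper25.RelGlaub
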