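import Mathlib
import Cfsg.Agent.Lib.Helper25.RelGlaub8
import Cfsg.Agent.S4447

/-!
# Relative Glauberman correspondence: the global statement
-/

set_option autoImplicit false

namespace Cfsg.Agent.Lib.Helper25.RelGlaub

open Cfsg Cfsg.Agent.Lib.Helper2 Cfsg.Agent.Lib.Helper6 Cfsg.Agent.Lib.Helper24
open Cfsg.Agent.Lib.Helper13 Cfsg.Agent.Lib.Lead.Glaub
open scoped ComplexConjugate Classical

attribute [local instance] irrFintype

section two

variable {X Y R : Type*} [Group X] [Fintype X] [Group Y] [Fintype Y] [Group R] [Finite R]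
variable {p : ℕ} {ι : Y →* X} {N : Subgroup X} {M : Subgroup Y} {φX : R →* MulAut X}
  {φY : R →* MulAut Y} [N.Normal] [M.Normal]

/-- invariant constituents are conjugate under the fixed points -/
theorem Setup.conj_fixed (hp : p.Prime) (h : Setup p ι N M φX φY) {θ θ' : N → ℂ}
    (hθ : IsIrrCharacter N θ) (hθφ : Inv (resAct φX N h.stab) θ)
    (hθ' : IsIrrCharacter N θ') (hθφ' : Inv (resAct φX N h.stab) θ') (χ : IrrCharacter X)
    (h1 : classInner (fun n : N => (χ : X → ℂ) n) θ ≠ 0)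
    (h2 : classInner (fun n : N => (χ : X → ℂ) n) θ' ≠ 0) :
    ∃ y : Y, θ' = conjFun N (ι y) θ := by
  haveI : Fact p.Prime := ⟨hp⟩
  obtain ⟨x₀, hx₀⟩ := Cfsg.Agent.S4447.conj_of_constituents N χ.2 hθ hθ' h1 h2
  set A : Set (X ⧸ N) := {c | ∃ x : X, (x : X ⧸ N) = c ∧ conjFun N x θ = θ'} with hA
  have hmem : ∀ x : X, (x : X ⧸ N) ∈ A ↔ conjFun N x θ = θ' := by
    intro x
    constructor
    · rintro ⟨x', hx', hc⟩
      have hn : x'⁻¹ * x ∈ N := QuotientGroup.eq.mp hx'
      have e : x = x' * (x'⁻¹ * x) := by group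
      rw [e, conjFun_mul, conjFun_of_mem N (irr_isClassFunction hθ) hn]
      exact hc
    · intro hc
      exact ⟨x, rfl, hc⟩
  have hcard : Nat.card N * Nat.card A = Nat.card (inertia N θ) := by
    rw [← card_conjFun_eq N θ (inertia N θ) (mem_inertia N θ) x₀, ← hx₀]
    have h3 := sum_comp_mk N (fun c : X ⧸ N => if c ∈ A then (1 : ℕ) else 0)
    rw [smul_eq_mul] at h3
    have h4 : ∑ c : X ⧸ N, (if c ∈ A then (1 : ℕ) else 0) = Nat.card A := by
      rw [Finset.sum_boole, Nat.card_eq_fintype_card, Fintype.card_subtype]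
      rfl
    have h5 : ∑ x : X, (if (x : X ⧸ N) ∈ A then (1 : ℕ) else 0)
        = Nat.card {x : X // conjFun N x θ = θ'} := by
      rw [Finset.sum_boole, Nat.card_eq_fintype_card, Fintype.card_subtype]
      simp only [Nat.cast_id]
      congr 1
      ext x
      simp only [Finset.mem_filter, Finset.mem_univ, true_and]
      exact hmem x
    rw [h4, h5] at h3
    exact h3.symm
  have hnd : ¬ p ∣ Nat.card A := by
    intro hd
    apply h.idx
    have h6 : Nat.card N * Nat.card A ∣ Nat.card N * N.index := by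
      rw [hcard, Subgroup.card_mul_index]
      exact Subgroup.card_subgroup_dvd_card _
    exact hd.trans (Nat.dvd_of_mul_dvd_mul_left Nat.card_pos h6)
  obtain ⟨c, hc, hfix⟩ := exists_fixed_act h.pgrp (quotAct φX N h.stab) A (by
    rintro r _ ⟨x, rfl, hx⟩
    rw [quotAct_mk, hmem]
    exact conjFun_act_eq φX N h.stab hθφ hθφ' r x hx) hnd
  obtain ⟨x, rfl, hx⟩ := hc
  have hxr : x ∈ ι.range := by
    rw [h.range]
    intro r
    have h7 := hfix r
    rw [quotAct_mk] at h7
    have h8 : x⁻¹ * φX r x ∈ N := QuotientGroup.eq.mp h7.symm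
    have h9 := (inferInstance : N.Normal).conj_mem _ h8 x
    have e : x * (x⁻¹ * φX r x) * x⁻¹ = φX r x * x⁻¹ := by group
    rwa [e] at h9
  obtain ⟨y, rfl⟩ := hxr
  exact ⟨y, hx.symm⟩

/-- going from `Y` to `X` with constituents -/
theorem Setup.over_of_inner (h : Setup p ι N M φX φY) {θ : N → ℂ} (hθ : IsIrrCharacter N θ)
    (χ : IrrCharacter X) (ξ : IrrCharacter Y)
    (h1 : classInner (fun y => (χ : X → ℂ) (ι y)) (ξ : Y → ℂ) ≠ 0)
    (h2 : classInner (fun m : M => (ξ : Y → ℂ) m) (h.pull θ) ≠ 0) :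
    classInner (fun n : N => (χ : X → ℂ) n) θ ≠ 0 := by
  have h3 := constituent_trans M.subtype
    (IsCharacter.comp_hom ι (IsIrrCharacter.isCharacter χ.2)) ξ ⟨_, h.pull_irr hθ⟩ h1 h2
  rw [← classInner_comp_equiv' h.eMN]
  exact h3

end two

end Cfsg.Agent.Lib.Helper25.RelGlaub
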