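import Mathlib
import Cfsg.Agent.Lib.Helper25.OddIndexReal
import Cfsg.Agent.Lib.Helper2.GalChar
import Cfsg.Agent.Lib.Helper13.CentralExt3

/-!
# Galois automorphisms inverting odd roots of unity and normal subgroups of odd index, I
-/

set_option autoImplicit false
open Cfsg

namespace Cfsg.Agent.Lib.Helper25.SigmaOdd

open Cfsg.Agent.Lib.Helper2 Cfsg.Agent.Lib.Helper6 Cfsg.Agent.Lib.Helper24 Cfsg.Agent.Lib.Helper23
open Cfsg.Agent.Lib.Helper25.OddIndexReal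
open scoped ComplexConjugate

attribute [local instance] irrFintype

structure KHyp (G : Type*) [Group G] (k : ℕ) : Prop where
  cop : Nat.Coprime k (Nat.card G)
  inv : ∀ g : G, Odd (orderOf g) → g ^ k = g⁻¹

theorem KHyp.subgroup {G : Type*} [Group G] [Finite G] {k : ℕ} (h : KHyp G k) (H : Subgroup G) :
    KHyp H k := by
  refine ⟨Nat.Coprime.coprime_dvd_right (Subgroup.card_subgroup_dvd_card H) h.cop, ?_⟩
  intro g hg
  apply Subtype.ext
  rw [Subgroup.coe_pow, Subgroup.coe_inv]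
  apply h.inv
  rwa [Subgroup.orderOf_coe]

variable {G : Type*} [Group G] [Fintype G]

theorem pow_succ_mem {k : ℕ} (h : KHyp G k) (N : Subgroup G) [N.Normal] (hodd : Odd N.index)
    (g : G) : g ^ (k + 1) ∈ N := by
  obtain ⟨a, m, hm, ho⟩ := Nat.exists_eq_two_pow_mul_odd (orderOf_pos g).ne'
  have h1 : Odd (orderOf (g ^ (2 ^ a))) := by
    apply Odd.of_dvd_nat hm
    apply orderOf_dvd_of_pow_eq_one
    rw [← pow_mul, ← ho, pow_orderOf_eq_one]
  have h2 := h.inv _ h1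
  have h3 : (g ^ (k + 1)) ^ (2 ^ a) = 1 := by
    rw [← pow_mul, mul_comm, pow_mul, pow_succ, h2, inv_mul_cancel]
  rw [← QuotientGroup.eq_one_iff]
  have h4 : ((g ^ (k + 1) : G) : G ⧸ N) ^ (2 ^ a) = 1 := by
    rw [← QuotientGroup.mk_pow, h3]
    rfl
  have h5 : ((g ^ (k + 1) : G) : G ⧸ N) ^ N.index = 1 := by
    rw [Subgroup.index_eq_card]
    exact pow_card_eq_one'
  have h6 := pow_gcd_eq_one.mpr ⟨h4, h5⟩
  have h7 : Nat.gcd (2 ^ a) N.index = 1 :=
    Nat.Coprime.pow_left a (Nat.coprime_two_left.mpr hodd)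
  rwa [h7, pow_one] at h6

theorem ker_pow {k : ℕ} (h : KHyp G k) (N : Subgroup G) [N.Normal] (hodd : Odd N.index)
    {γ : G → ℂ} (hγ : IsIrrCharacter G γ) (hker : ∀ n ∈ N, γ n = γ 1) (g : G) :
    γ (g ^ k) = conj (γ g) := by
  obtain ⟨ψ, hψ, hψ'⟩ := IsIrrCharacter.deflate N hγ hker
  rw [← IsCharacter.apply_inv (IsIrrCharacter.isCharacter hγ), ← hψ', ← hψ']
  congr 1
  rw [QuotientGroup.eq]
  have := pow_succ_mem h N hodd g
  have h2 : (g ^ k)⁻¹ * g⁻¹ = (g ^ (k + 1))⁻¹ := by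
    rw [pow_succ', mul_inv_rev]
  rw [h2]
  exact N.inv_mem this

theorem parity_gen (N : Subgroup G) [N.Normal] [Fintype N] (hodd : Odd N.index)
    (χ₁ χ₂ : IrrCharacter G)
    (hsym : ∀ γ : IrrCharacter G, (∀ n ∈ N, (γ : G → ℂ) n = (γ : G → ℂ) 1) →
      classInner (fun g => (χ₁ : G → ℂ) g * conj ((χ₂ : G → ℂ) g)) ((cj γ : IrrCharacter G) : G → ℂ) =
      classInner (fun g => (χ₁ : G → ℂ) g * conj ((χ₂ : G → ℂ) g)) (γ : G → ℂ)) :
    ∃ k : ℕ, classInner (fun n : N => (χ₁ : G → ℂ) n) (fun n : N => (χ₂ : G → ℂ) n)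
      = ((if χ₁ = χ₂ then 1 else 0 : ℕ) : ℂ) + 2 * (k : ℂ) := by
  classical
  set f : G → ℂ := fun g => (χ₁ : G → ℂ) g * conj ((χ₂ : G → ℂ) g) with hf
  have hfc : IsCharacter G f := IsCharacter.mul (IsIrrCharacter.isCharacter χ₁.2)
    (IsCharacter.conj (IsIrrCharacter.isCharacter χ₂.2))
  choose m hm using fun γ : IrrCharacter G => IsCharacter.classInner_nat hfc (IsIrrCharacter.isCharacter γ.2)
  let c : IrrCharacter G → ℕ := fun γ => if ∀ n ∈ N, (γ : G → ℂ) n = (γ : G → ℂ) 1 then charDegree (γ : G → ℂ) else 0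
  have hc : ∀ γ : IrrCharacter G, ∑ n : N, (γ : G → ℂ) n = (Nat.card N : ℂ) * (c γ : ℂ) := by
    intro γ
    by_cases hk : ∀ n ∈ N, (γ : G → ℂ) n = (γ : G → ℂ) 1
    · simp only [c, if_pos hk]
      rw [Finset.sum_congr rfl (fun (n : N) _ => hk n n.2), Finset.sum_const, Finset.card_univ,
        nsmul_eq_mul, Nat.card_eq_fintype_card, charDegree_cast (IsIrrCharacter.isCharacter γ.2)]
    · simp only [c, if_neg hk]
      rcases Cfsg.Agent.Lib.Helper13.ker_or_sum_eq_zero N γ.2 with h | h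
      · exact absurd h hk
      · rw [h]; simp
  have hN0 : (Nat.card N : ℂ) ≠ 0 := by exact_mod_cast (Nat.card_pos (α := N)).ne'
  have hstep1 : classInner (fun n : N => (χ₁ : G → ℂ) n) (fun n : N => (χ₂ : G → ℂ) n)
      = ((∑ γ : IrrCharacter G, m γ * c γ : ℕ) : ℂ) := by
    have hexp := classFunction_eq_sum (IsCharacter.isClassFunction hfc)
    have h1 : ∀ n : N, (χ₁ : G → ℂ) n * conj ((χ₂ : G → ℂ) n)
        = ∑ γ : IrrCharacter G, (m γ : ℂ) * (γ : G → ℂ) n := by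
      intro n
      have := congrFun hexp (n : G)
      rw [Finset.sum_apply] at this
      simp only [Pi.smul_apply, smul_eq_mul, hm] at this
      rw [← this]
    rw [classInner, Finset.sum_congr rfl (fun n _ => h1 n), Finset.sum_comm]
    simp_rw [← Finset.mul_sum, hc]
    push_cast
    rw [Finset.mul_sum]
    refine Finset.sum_congr rfl fun γ _ => ?_
    field_simp
  have hm1 : m trivIrr = if χ₁ = χ₂ then 1 else 0 := by
    have h1 := hm trivIrr
    have h2 : classInner f ((trivIrr : IrrCharacter G) : G → ℂ) = classInner (χ₁ : G → ℂ) (χ₂ : G → ℂ) := by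
      unfold classInner
      congr 1
      refine Finset.sum_congr rfl fun g _ => ?_
      change (χ₁ : G → ℂ) g * conj ((χ₂ : G → ℂ) g) * conj (1 : ℂ) = _
      simp
    rw [h2, classInner_irr χ₁.2 χ₂.2] at h1
    by_cases h : χ₁ = χ₂
    · rw [if_pos h]
      rw [if_pos (congrArg Subtype.val h)] at h1
      exact_mod_cast h1.symm
    · rw [if_neg h]
      rw [if_neg (fun h' => h (Subtype.ext h'))] at h1
      exact_mod_cast h1.symm
  have hc1 : c trivIrr = 1 := by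
    simp only [c]
    have h0 : ∀ n ∈ N, ((trivIrr : IrrCharacter G) : G → ℂ) n = ((trivIrr : IrrCharacter G) : G → ℂ) 1 :=
      fun _ _ => rfl
    rw [if_pos h0, charDegree_trivIrr]
  have hmcj : ∀ γ : IrrCharacter G, (∀ n ∈ N, (γ : G → ℂ) n = (γ : G → ℂ) 1) → m (cj γ) = m γ := by
    intro γ hγ
    have h1 := hsym γ hγ
    rw [hm, hm] at h1
    exact_mod_cast h1
  have hccj : ∀ γ, c (cj γ) = c γ := by
    intro γ
    have hiff : (∀ n ∈ N, ((cj γ : IrrCharacter G) : G → ℂ) n = ((cj γ : IrrCharacter G) : G → ℂ) 1)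
        ↔ ∀ n ∈ N, (γ : G → ℂ) n = (γ : G → ℂ) 1 := by
      constructor
      · intro h n hn
        have := h n hn
        exact (starRingEnd ℂ).injective this
      · intro h n hn
        exact congrArg conj (h n hn)
    have hdeg : charDegree ((cj γ : IrrCharacter G) : G → ℂ) = charDegree (γ : G → ℂ) := by
      have h1 := charDegree_cast (IsIrrCharacter.isCharacter (cj γ).2)
      have h2 := charDegree_cast (IsIrrCharacter.isCharacter γ.2)
      have h3 : ((cj γ : IrrCharacter G) : G → ℂ) 1 = conj ((γ : G → ℂ) 1) := rfl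
      rw [h3, ← h2, Complex.conj_natCast] at h1
      exact_mod_cast h1
    simp only [c]
    by_cases hk : ∀ n ∈ N, (γ : G → ℂ) n = (γ : G → ℂ) 1
    · rw [if_pos hk, if_pos (hiff.mpr hk), hdeg]
    · rw [if_neg hk, if_neg (fun h => hk (hiff.mp h))]
  have heven : ((∑ γ ∈ Finset.univ.erase (trivIrr : IrrCharacter G), m γ * c γ : ℕ) : ZMod 2) = 0 := by
    push_cast
    apply Finset.sum_involution (fun γ _ => cj γ)
    · intro γ _
      by_cases hk : ∀ n ∈ N, (γ : G → ℂ) n = (γ : G → ℂ) 1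
      · rw [hmcj γ hk, hccj]
        have : (2 : ZMod 2) = 0 := rfl
        linear_combination ((m γ : ZMod 2) * (c γ : ZMod 2)) * this
      · rw [hccj]
        simp only [c, if_neg hk]
        simp
    · intro γ hγ hne hfix
      have hne1 := (Finset.mem_erase.mp hγ).1
      apply hne1
      apply eq_triv_of_real N hodd γ _ hfix
      by_contra hk
      apply hne
      simp only [c, if_neg hk]
      simp
    · intro γ _
      exact cj_cj γ
    · intro γ hγ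
      rw [Finset.mem_erase]
      refine ⟨?_, Finset.mem_univ _⟩
      intro h
      apply (Finset.mem_erase.mp hγ).1
      rw [← cj_cj γ, h]
      apply Subtype.ext
      funext g
      change conj (1 : ℂ) = 1
      simp
  rw [ZMod.natCast_eq_zero_iff] at heven
  obtain ⟨k, hk⟩ := heven
  refine ⟨k, ?_⟩
  rw [hstep1, ← Finset.add_sum_erase _ _ (Finset.mem_univ (trivIrr : IrrCharacter G)), hm1, hc1, hk]
  push_cast
  ring

theorem parity_sigma {k : ℕ} (h : KHyp G k) (N : Subgroup G) [N.Normal] [Fintype N]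
    (hodd : Odd N.index) (χ₁ χ₂ : IrrCharacter G)
    (h₁ : ∀ g, (χ₁ : G → ℂ) (g ^ k) = (χ₁ : G → ℂ) g)
    (h₂ : ∀ g, (χ₂ : G → ℂ) (g ^ k) = (χ₂ : G → ℂ) g) :
    ∃ k : ℕ, classInner (fun n : N => (χ₁ : G → ℂ) n) (fun n : N => (χ₂ : G → ℂ) n)
      = ((if χ₁ = χ₂ then 1 else 0 : ℕ) : ℂ) + 2 * (k : ℂ) := by
  apply parity_gen N hodd
  intro γ hγ
  unfold classInner
  congr 1
  rw [← Equiv.sum_comp (powCoprime h.cop.symm)
    (fun g => (χ₁ : G → ℂ) g * conj ((χ₂ : G → ℂ) g) * conj ((γ : G → ℂ) g))]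
  refine Finset.sum_congr rfl fun g _ => ?_
  show _ = (χ₁ : G → ℂ) (g ^ k) * conj ((χ₂ : G → ℂ) (g ^ k)) * conj ((γ : G → ℂ) (g ^ k))
  rw [h₁, h₂, ker_pow h N hodd γ.2 hγ]
  rfl

theorem unique_sigma {k : ℕ} (h : KHyp G k) (N : Subgroup G) [hN : N.Normal] [Fintype N]
    (hodd : Odd N.index) (χ₁ χ₂ : IrrCharacter G)
    (h₁ : ∀ g, (χ₁ : G → ℂ) (g ^ k) = (χ₁ : G → ℂ) g)
    (h₂ : ∀ g, (χ₂ : G → ℂ) (g ^ k) = (χ₂ : G → ℂ) g) {φ : N → ℂ} (hφ : IsIrrCharacter N φ)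
    (hc₁ : classInner (fun n : N => (χ₁ : G → ℂ) n) φ ≠ 0)
    (hc₂ : classInner (fun n : N => (χ₂ : G → ℂ) n) φ ≠ 0) : χ₁ = χ₂ := by
  classical
  by_contra hne
  have e₁ := Cfsg.Agent.S0174.result N hN χ₁ χ₁.2 φ hφ hc₁
  have e₂ := Cfsg.Agent.S0174.result N hN χ₂ χ₂.2 φ hφ hc₂
  set S : N → ℂ := ∑ᶠ ψ ∈ {ψ : N → ℂ | ∃ g : G, ψ = fun n : N => φ ⟨g * n * g⁻¹, hN.conj_mem n n.2 g⟩}, ψ with hS
  set a₁ := classInner (fun n : N => (χ₁ : G → ℂ) n) φ
  set a₂ := classInner (fun n : N => (χ₂ : G → ℂ) n) φ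
  obtain ⟨k₁, hk₁⟩ := parity_sigma h N hodd χ₁ χ₁ h₁ h₁
  obtain ⟨k₂, hk₂⟩ := parity_sigma h N hodd χ₂ χ₂ h₂ h₂
  obtain ⟨k₃, hk₃⟩ := parity_sigma h N hodd χ₁ χ₂ h₁ h₂
  obtain ⟨k₄, hk₄⟩ := parity_sigma h N hodd χ₂ χ₁ h₂ h₁
  rw [if_pos rfl] at hk₁ hk₂
  rw [if_neg hne] at hk₃
  rw [if_neg (fun h => hne h.symm)] at hk₄
  rw [e₁, classInner_smul_left, classInner_smul_right] at hk₁
  rw [e₂, classInner_smul_left, classInner_smul_right] at hk₂
  rw [e₁, e₂, classInner_smul_left, classInner_smul_right] at hk₃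
  rw [e₁, e₂, classInner_smul_left, classInner_smul_right] at hk₄
  have hprod : (((1 + 2 * k₁) * (1 + 2 * k₂) : ℕ) : ℂ) = (((2 * k₃) * (2 * k₄) : ℕ) : ℂ) := by
    push_cast
    push_cast at hk₁ hk₂ hk₃ hk₄
    rw [← hk₁, ← hk₂]
    have h3 : (2 : ℂ) * k₃ = a₁ * ((starRingEnd ℂ) a₂ * classInner S S) := by rw [hk₃]; ring
    have h4 : (2 : ℂ) * k₄ = a₂ * ((starRingEnd ℂ) a₁ * classInner S S) := by rw [hk₄]; ring
    rw [h3, h4]
    ring
  have hprod' : (1 + 2 * k₁) * (1 + 2 * k₂) = (2 * k₃) * (2 * k₄) := by exact_mod_cast hprod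
  have ho : Odd ((1 + 2 * k₁) * (1 + 2 * k₂)) :=
    Odd.mul ⟨k₁, by ring⟩ ⟨k₂, by ring⟩
  rw [hprod'] at ho
  have he : Even ((2 * k₃) * (2 * k₄)) := Even.mul_right ⟨k₃, by ring⟩ _
  exact (Nat.not_even_iff_odd.mpr ho) he

end Cfsg.Agent.Lib.Helper25.SigmaOdd
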