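import Mathlib
import Cfsg.Agent.Lib.Helper25.SigmaOdd1
import Cfsg.Agent.Lib.Helper13.DetExt4

/-!
# Galois automorphisms inverting odd roots of unity and normal subgroups of odd index, II
-/

set_option autoImplicit false
open Cfsg

namespace Cfsg.Agent.Lib.Helper25.SigmaOdd

open Cfsg.Agent.Lib.Helper2 Cfsg.Agent.Lib.Helper6 Cfsg.Agent.Lib.Helper24 Cfsg.Agent.Lib.Helper13
open scoped ComplexConjugate Classical

theorem unique_hom {G N : Type*} [Group G] [Fintype G] [Group N] [Fintype N] {k : ℕ}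
    (h : KHyp G k) (j : N →* G) (hj : Function.Injective j) (hn : j.range.Normal)
    (hodd : Odd j.range.index) {χ₁ χ₂ : G → ℂ} (hχ₁ : IsIrrCharacter G χ₁)
    (hχ₂ : IsIrrCharacter G χ₂) (h₁ : ∀ g, χ₁ (g ^ k) = χ₁ g) (h₂ : ∀ g, χ₂ (g ^ k) = χ₂ g)
    {φ : N → ℂ} (hφ : IsIrrCharacter N φ) (hc₁ : classInner (fun n => χ₁ (j n)) φ ≠ 0)
    (hc₂ : classInner (fun n => χ₂ (j n)) φ ≠ 0) : χ₁ = χ₂ := by
  let e : N ≃* j.range := MonoidHom.ofInjective hj
  have hφ' : IsIrrCharacter j.range (fun x => φ (e.symm x)) :=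
    Cfsg.Agent.Lib.Helper24.IsIrrCharacter.inflate e.symm.toMonoidHom e.symm.surjective hφ
  have key : ∀ χ : G → ℂ, classInner (fun x : j.range => χ x) (fun x => φ (e.symm x)) =
      classInner (fun n => χ (j n)) φ := by
    intro χ
    rw [← classInner_comp_mulEquiv e]
    congr 1
    funext n
    rw [e.symm_apply_apply]
  have := unique_sigma h j.range hodd ⟨χ₁, hχ₁⟩ ⟨χ₂, hχ₂⟩ h₁ h₂ hφ'
    (by rw [key]; exact hc₁) (by rw [key]; exact hc₂)
  exact congrArg Subtype.val this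

theorem sigma_ext {G : Type*} [Group G] [Fintype G] {k : ℕ} (h : KHyp G k) (N : Subgroup G)
    [hN : N.Normal] (hodd : Odd N.index) {θ : N → ℂ} (hθ : IsIrrCharacter N θ)
    (hσ : ∀ n, θ (n ^ k) = θ n) {χ₀ : G → ℂ} (hχ₀ : IsIrrCharacter G χ₀)
    (hext : ∀ n : N, χ₀ n = θ n) :
    ∃ χ : G → ℂ, IsIrrCharacter G χ ∧ (∀ n : N, χ n = θ n) ∧ ∀ g, χ (g ^ k) = χ g := by
  have hres : (fun n : N => χ₀ n) = θ := funext hext
  have hgal := gallagher N hχ₀ (by rw [hres]; exact hθ)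
  have hχσ := GalChar.isIrrCharacter_pow hχ₀ k h.cop
  have hresσ : (fun n : N => (fun g => χ₀ (g ^ k)) (n : G)) = θ := by
    funext n
    show χ₀ ((n : G) ^ k) = θ n
    rw [← hσ n, ← hext]
    rfl
  obtain ⟨β, ⟨hβ, hβk⟩, hβχ⟩ := hgal.surjOn (⟨hχσ, by
    rw [hresσ, hres, classInner_irr hθ hθ, if_pos rfl]
    exact one_ne_zero⟩ : (fun g => χ₀ (g ^ k)) ∈ {ψ : G → ℂ |
      IsIrrCharacter G ψ ∧ classInner (fun n : N => ψ n) (fun n : N => χ₀ n) ≠ 0})
  have h0 := irr_one_ne_zero hχ₀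
  have hβ1 : β 1 = 1 := by
    have h1 := congrFun hβχ 1
    simp only [Pi.mul_apply, one_pow] at h1
    exact mul_right_cancel₀ h0 (by rw [one_mul]; exact h1)
  obtain ⟨lam, rfl⟩ := exists_hom_of_degree_one (IsIrrCharacter.isCharacter hβ) hβ1
  have hlamN : ∀ n ∈ N, lam n = 1 := by
    intro n hn
    apply Units.ext
    have := hβk n hn
    simpa using this
  obtain ⟨c, hc⟩ := hodd
  let μ : G →* ℂˣ := lam ^ (c + 1)
  have hμ : ∀ g, μ g = lam g ^ (c + 1) := fun g => rfl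
  have hμN : ∀ n ∈ N, μ n = 1 := by
    intro n hn
    rw [hμ, hlamN n hn, one_pow]
  have hidx : ∀ g : G, lam g ^ (2 * c + 1) = 1 := by
    intro g
    rw [← map_pow, ← hc]
    exact hlamN _ (Subgroup.pow_index_mem N g)
  have hsq : ∀ g, μ g * μ g = lam g := by
    intro g
    rw [hμ, ← pow_add]
    have : c + 1 + (c + 1) = (2 * c + 1) + 1 := by ring
    rw [this, pow_succ, hidx, one_mul]
  have hμk : ∀ g, μ (g ^ k) * μ g = 1 := by
    intro g
    rw [← map_mul, ← pow_succ]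
    exact hμN _ (pow_succ_mem h N ⟨c, hc⟩ g)
  refine ⟨(fun g => (μ g : ℂ)) * χ₀, IsIrrCharacter.linear_mul
    (IsIrrCharacter.isCharacter (isIrrCharacter_of_hom μ)) (by simp) hχ₀, ?_, ?_⟩
  · intro n
    rw [Pi.mul_apply, hμN n n.2, hext]
    simp
  · intro g
    have h1 := congrFun hβχ g
    simp only [Pi.mul_apply] at h1
    rw [Pi.mul_apply, Pi.mul_apply, ← h1, ← mul_assoc]
    congr 1
    have h2 : μ (g ^ k) * lam g = μ g := by
      rw [← hsq g, ← mul_assoc, hμk, one_mul]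
    exact_mod_cast congrArg Units.val h2

end Cfsg.Agent.Lib.Helper25.SigmaOdd
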