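import Mathlib
import Cfsg.Agent.Lib.Helper25.SigmaOdd2
import Cfsg.Agent.Lib.Helper25.RelGlaub5

/-!
# Galois automorphisms inverting odd roots of unity and normal subgroups of odd index, III
-/

set_option autoImplicit false
open Cfsg

namespace Cfsg.Agent.Lib.Helper25.SigmaOdd

open Cfsg.Agent.Lib.Helper2 Cfsg.Agent.Lib.Helper6 Cfsg.Agent.Lib.Helper24 Cfsg.Agent.Lib.Helper13
open scoped ComplexConjugate Classical

universe u

theorem ext_qgroup (q : ℕ) (hq : q.Prime) (hq2 : Odd q) (k : ℕ) : ∀ (r : ℕ) (P N : Type u)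
    [Group P] [Fintype P] [Group N] [Fintype N] (j : N →* P), Function.Injective j →
    j.range.Normal → j.range.index = q ^ r → KHyp P k → ∀ θ : N → ℂ, IsIrrCharacter N θ →
    (∀ n, θ (n ^ k) = θ n) → (∀ (x : P) (n n' : N), j n' = x * j n * x⁻¹ → θ n' = θ n) →
    ∃ η : P → ℂ, IsIrrCharacter P η ∧ (∀ n, η (j n) = θ n) ∧ ∀ g, η (g ^ k) = η g := by
  intro r
  induction r with
  | zero =>
    intro P N _ _ _ _ j hj _ hidx _ θ hθ hσ _
    rw [pow_zero, Subgroup.index_eq_one, MonoidHom.range_eq_top] at hidx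
    let e : N ≃* P := MulEquiv.ofBijective j ⟨hj, hidx⟩
    refine ⟨fun g => θ (e.symm g),
      Cfsg.Agent.Lib.Helper24.IsIrrCharacter.inflate e.symm.toMonoidHom e.symm.surjective hθ, ?_, ?_⟩
    · intro n
      show θ (e.symm (e n)) = θ n
      rw [e.symm_apply_apply]
    · intro g
      show θ (e.symm (g ^ k)) = θ (e.symm g)
      rw [map_pow, hσ]
  | succ r ih =>
    intro P N _ _ _ _ j hj hn hidx hk θ hθ hσ hinv
    haveI := hn
    haveI : Fact q.Prime := ⟨hq⟩
    have hcard : Nat.card (P ⧸ j.range) = q ^ (r + 1) := by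
      rw [← Subgroup.index_eq_card, hidx]
    obtain ⟨K, hK⟩ := Sylow.exists_subgroup_card_pow_prime (G := P ⧸ j.range) q (n := r) (by
      rw [hcard]
      exact pow_dvd_pow q (Nat.le_succ r))
    have hKidx : K.index = q := by
      have h1 := K.card_mul_index
      rw [hK, hcard, pow_succ] at h1
      exact Nat.eq_of_mul_eq_mul_left (pow_pos hq.pos r) h1
    haveI hKn : K.Normal := by
      apply Subgroup.normal_of_index_eq_minFac_card
      rw [hKidx, hcard, hq.pow_minFac (Nat.succ_ne_zero r)]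
    set M : Subgroup P := K.comap (QuotientGroup.mk' j.range) with hM
    haveI hMn : M.Normal := hKn.comap _
    have hMidx : M.index = q := by
      rw [hM, Subgroup.index_comap_of_surjective _ (QuotientGroup.mk'_surjective _), hKidx]
    have hIM : j.range ≤ M := by
      intro x hx
      rw [hM, Subgroup.mem_comap]
      have : QuotientGroup.mk' j.range x = 1 := (QuotientGroup.eq_one_iff x).mpr hx
      rw [this]
      exact K.one_mem
    let j₁ : N →* M := j.codRestrict M (fun n => hIM ⟨n, rfl⟩)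
    have hj₁ : Function.Injective j₁ := fun a b hab => hj (congrArg Subtype.val hab)
    have hj₁r : j₁.range = j.range.subgroupOf M := by
      ext x
      rw [Subgroup.mem_subgroupOf]
      constructor
      · rintro ⟨n, rfl⟩
        exact ⟨n, rfl⟩
      · rintro ⟨n, hn'⟩
        exact ⟨n, Subtype.ext hn'⟩
    have hj₁n : j₁.range.Normal := by
      rw [hj₁r]
      infer_instance
    have hj₁i : j₁.range.index = q ^ r := by
      rw [hj₁r]
      have h1 := Subgroup.relIndex_mul_index hIM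
      rw [hMidx, hidx, pow_succ] at h1
      exact Nat.eq_of_mul_eq_mul_right hq.pos h1
    obtain ⟨η₁, hη₁, hη₁θ, hη₁σ⟩ := ih M N j₁ hj₁ hj₁n hj₁i (hk.subgroup M) θ hθ hσ (by
      intro x n n' hx
      exact hinv x n n' (congrArg Subtype.val hx))
    have hη₁inv : ∀ x : P, conjFun M x η₁ = η₁ := by
      intro x
      have hres : (fun n => conjFun M x η₁ (j₁ n)) = θ := by
        funext n
        obtain ⟨n', hn'⟩ := hn.conj_mem (j n) ⟨n, rfl⟩ x⁻¹
        rw [conjFun_apply]
        have h1 : (⟨x⁻¹ * (j₁ n : P) * x, by simpa using hMn.conj_mem (j₁ n) (j₁ n).2 x⁻¹⟩ : M) =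
            j₁ n' := by
          apply Subtype.ext
          show x⁻¹ * j n * x = j n'
          rw [hn', inv_inv]
        rw [h1, hη₁θ]
        exact hinv x⁻¹ n n' hn'
      apply unique_hom (hk.subgroup M) j₁ hj₁ hj₁n (by rw [hj₁i]; exact hq2.pow)
        (IsIrrCharacter.conjFun M hη₁ x) hη₁ _ hη₁σ hθ
      · rw [hres, classInner_irr hθ hθ, if_pos rfl]
        exact one_ne_zero
      · rw [show (fun n => η₁ (j₁ n)) = θ from funext hη₁θ, classInner_irr hθ hθ, if_pos rfl]
        exact one_ne_zero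
      · intro m
        rw [conjFun_apply, conjFun_apply,
          ← hη₁σ ⟨x⁻¹ * (m : P) * x, by simpa using hMn.conj_mem m m.2 x⁻¹⟩]
        congr 1
        apply Subtype.ext
        show x⁻¹ * (m : P) ^ k * x = (x⁻¹ * (m : P) * x) ^ k
        have := conj_pow (a := x⁻¹) (b := (m : P)) (i := k)
        rw [inv_inv] at this
        exact this.symm
    have hcyc : IsCyclic (P ⧸ M) := by
      apply isCyclic_of_prime_card (p := q)
      rw [← Subgroup.index_eq_card, hMidx]
    obtain ⟨χ₀, hχ₀, hχ₀M⟩ := exists_extension_of_cyclic_quotient M hcyc hη₁ hη₁inv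
    obtain ⟨η, hη, hηM, hησ⟩ := sigma_ext hk M (by rw [hMidx]; exact hq2) hη₁ hη₁σ hχ₀ hχ₀M
    refine ⟨η, hη, ?_, hησ⟩
    intro n
    rw [← hη₁θ n, ← hηM]
    rfl

theorem ext_invariant {G : Type u} [Group G] [Fintype G] {k : ℕ} (h : KHyp G k) (N : Subgroup G)
    [hN : N.Normal] (hodd : Odd N.index) {θ : N → ℂ} (hθ : IsIrrCharacter N θ)
    (hσ : ∀ n, θ (n ^ k) = θ n) (hinv : ∀ g : G, conjFun N g θ = θ) :
    ∃ χ : G → ℂ, IsIrrCharacter G χ ∧ (∀ n : N, χ n = θ n) ∧ ∀ g, χ (g ^ k) = χ g := by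
  have hinv' : ∀ (g : G) (n : N), θ ⟨g * n * g⁻¹, hN.conj_mem n n.2 g⟩ = θ n :=
    fun g => (stmtInv_iff N θ g).mpr (hinv g)
  obtain ⟨χ₀, hχ₀, hχ₀N⟩ := exists_extension_of_sylow_extensions N hθ hinv (by
    intro p hp
    obtain ⟨P, hNP, hPi, r, hr⟩ := exists_sylow_over N p hp
    have hrel : N.relIndex P * P.index = N.index := Subgroup.relIndex_mul_index hNP
    have hoddr : Odd (p ^ r) := by
      rw [← hr]
      exact Odd.of_dvd_nat hodd (Dvd.intro _ hrel)
    have hex : ∃ q : ℕ, q.Prime ∧ Odd q ∧ N.relIndex P = q ^ r := by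
      rcases Nat.eq_zero_or_pos r with h0 | h0
      · exact ⟨3, by norm_num, by decide, by rw [hr, h0, pow_zero, pow_zero]⟩
      · exact ⟨p, hp, (Nat.odd_pow_iff h0.ne').mp hoddr, hr⟩
    obtain ⟨q, hq, hq2, hqr⟩ := hex
    obtain ⟨η, hη, hηN, -⟩ := ext_qgroup q hq hq2 k r P N (Subgroup.inclusion hNP)
      (Subgroup.inclusion_injective hNP) (by rw [Subgroup.inclusion_range]; infer_instance)
      (by rw [Subgroup.inclusion_range]; exact hqr) (h.subgroup P) θ hθ hσ (by
        intro x n n' hx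
        have hx' : (n' : G) = x * n * (x : G)⁻¹ := congrArg Subtype.val hx
        rw [← hinv' x n]
        congr 1
        exact Subtype.ext hx')
    exact ⟨P, hNP, η, hPi, ⟨r, hr⟩, hη, hηN⟩)
  exact sigma_ext h N hodd hθ hσ hχ₀ hχ₀N

theorem extendByZero_pow {G : Type*} [Group G] [Finite G] {k : ℕ} (hk : Nat.Coprime k (Nat.card G))
    (T : Subgroup G) {ψ : T → ℂ} (hψ : ∀ t, ψ (t ^ k) = ψ t) (y : G) :
    extendByZero T ψ (y ^ k) = extendByZero T ψ y := by
  by_cases hy : y ∈ T
  · rw [extendByZero_mem T ψ hy, extendByZero_mem T ψ (T.pow_mem hy k), ← hψ ⟨y, hy⟩]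
    rfl
  · have hy' : y ^ k ∉ T := by
      intro h
      obtain ⟨m, hm⟩ := exists_pow_eq_self_of_coprime
        (Nat.Coprime.coprime_dvd_right (orderOf_dvd_natCard y) hk)
      apply hy
      rw [← hm]
      exact T.pow_mem h m
    rw [extendByZero_not_mem T ψ hy, extendByZero_not_mem T ψ hy']

theorem exists_sigma {G : Type u} [Group G] [Fintype G] {k : ℕ} (h : KHyp G k) (N : Subgroup G)
    [hN : N.Normal] [Fintype N] (hodd : Odd N.index) {θ : N → ℂ} (hθ : IsIrrCharacter N θ)
    (hσ : ∀ n, θ (n ^ k) = θ n) :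
    ∃ χ : G → ℂ, IsIrrCharacter G χ ∧ classInner (fun n : N => χ n) θ ≠ 0 ∧
      ∀ g, χ (g ^ k) = χ g := by
  have hNT : N ≤ inertia N θ := le_inertia N hθ _ (mem_inertia N θ)
  have hθ' := IsIrrCharacter.toSubgroupOf hNT hθ
  obtain ⟨ψ, hψ, hψN, hψσ⟩ := ext_invariant (h.subgroup (inertia N θ)) (N.subgroupOf (inertia N θ))
    (Odd.of_dvd_nat hodd (Dvd.intro _ (Subgroup.relIndex_mul_index hNT))) hθ' (by
      intro n
      exact hσ ⟨(n : inertia N θ), Subgroup.mem_subgroupOf.mp n.2⟩) (by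
      intro t
      rw [conjFun_toSubgroupOf, (mem_inertia N θ t).mp t.2])
  have hov : RelGlaub.OvT N θ ψ := by
    unfold RelGlaub.OvT
    rw [show (fun n : N.subgroupOf (inertia N θ) => ψ n) = toSubgroupOf N (inertia N θ) θ from
      funext hψN, classInner_irr hθ' hθ', if_pos rfl]
    exact one_ne_zero
  refine ⟨indFun (inertia N θ) ψ, RelGlaub.cp_irr N hθ hψ hov, ?_, ?_⟩
  · convert RelGlaub.cp_over N hθ hψ hov
  · intro g
    unfold indFun
    congr 1
    refine Finset.sum_congr rfl fun x _ => ?_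
    rw [← extendByZero_pow h.cop (inertia N θ) hψσ (x⁻¹ * g * x)]
    congr 1
    have := conj_pow (a := x⁻¹) (b := g) (i := k)
    rw [inv_inv] at this
    exact this.symm

end Cfsg.Agent.Lib.Helper25.SigmaOdd
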