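import Mathlib
import Cfsg.Agent.S0022
import Cfsg.Agent.S0023

/-!
# A minimal configuration for a `p`-group acting on a `p'`-group with equal point centralizers
-/

set_option autoImplicit false

namespace Cfsg.Agent.Lib.Helper25
namespace TIFaith

variable {G : Type*} [Group G]

theorem le_normalizer_of_forall {A H : Subgroup G} (h : ∀ x ∈ A, ∀ y ∈ H, x * y * x⁻¹ ∈ H) :
    A ≤ Subgroup.normalizer (H : Set G) := by
  intro x hx
  rw [Subgroup.mem_normalizer_iff]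
  intro y
  constructor
  · exact h x hx y
  · intro hy
    have := h x⁻¹ (inv_mem hx) _ hy
    simpa [mul_assoc] using this

/-- the configuration -/
structure Cfg (p : ℕ) (P X : Subgroup G) : Prop where
  pgrp : IsPGroup p P
  inv : ∀ x ∈ P, ∀ y ∈ X, x * y * x⁻¹ ∈ X
  cop : (Nat.card X).Coprime p
  nc : ¬ ∀ x ∈ P, ∀ y ∈ X, x * y = y * x
  min : ∀ Y : Subgroup G, Y ≤ X → Y ≠ X → (∀ x ∈ P, ∀ y ∈ Y, x * y * x⁻¹ ∈ Y) →
    ∀ x ∈ P, ∀ y ∈ Y, x * y = y * x
  fix : ∀ x ∈ P, x ≠ 1 → ∀ c ∈ X, x * c = c * x → ∀ y ∈ P, y * c = c * y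

/-- the fixed points -/
def Zc (P X : Subgroup G) : Subgroup G := X ⊓ Subgroup.centralizer (P : Set G)

theorem mem_Zc {P X : Subgroup G} {c : G} : c ∈ Zc P X ↔ c ∈ X ∧ ∀ x ∈ P, x * c = c * x := by
  rw [Zc, Subgroup.mem_inf, Subgroup.mem_centralizer_iff]
  rfl

theorem Zc_le (P X : Subgroup G) : Zc P X ≤ X := inf_le_left

variable {p : ℕ} [hp : Fact p.Prime] {P X : Subgroup G}

theorem Cfg.le_Zc (h : Cfg p P X) {Y : Subgroup G} (hY : Y ≤ X) (hne : Y ≠ X)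
    (hinv : ∀ x ∈ P, ∀ y ∈ Y, x * y * x⁻¹ ∈ Y) : Y ≤ Zc P X := by
  intro y hy
  exact mem_Zc.mpr ⟨hY hy, fun x hx => h.min Y hY hne hinv x hx y hy⟩

theorem Cfg.Zc_ne (h : Cfg p P X) : Zc P X ≠ X := by
  intro he
  apply h.nc
  intro x hx y hy
  rw [← he] at hy
  exact (mem_Zc.mp hy).2 x hx

theorem Cfg.coprime_card [Finite G] (h : Cfg p P X) : (Nat.card P).Coprime (Nat.card X) := by
  obtain ⟨n, hn⟩ := IsPGroup.iff_card.mp h.pgrp
  rw [hn]
  exact (Nat.Coprime.pow_right n h.cop).symm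

/-- stability lemma -/
theorem Cfg.stab [Finite G] (h : Cfg p P X) (W : Subgroup G) (hW : W ≤ Zc P X)
    (hs : ∀ x ∈ P, ∀ y ∈ X, x * y * x⁻¹ * y⁻¹ ∈ W) : False := by
  apply h.nc
  intro x hx y hy
  obtain ⟨c, hcdef⟩ : ∃ c, c = x * y * x⁻¹ * y⁻¹ := ⟨_, rfl⟩
  have hc : c ∈ W := hcdef ▸ hs x hx y hy
  have hcZ := mem_Zc.mp (hW hc)
  have hcomm : Commute x c := hcZ.2 x hx
  have hxy : x * y * x⁻¹ = c * y := by rw [hcdef]; group
  have hpow : ∀ n : ℕ, x ^ n * y * (x ^ n)⁻¹ = c ^ n * y := by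
    intro n
    induction n with
    | zero => simp
    | succ n ih =>
      calc x ^ (n + 1) * y * (x ^ (n + 1))⁻¹ = x * (x ^ n * y * (x ^ n)⁻¹) * x⁻¹ := by
            rw [pow_succ']; group
        _ = x * (c ^ n * y) * x⁻¹ := by rw [ih]
        _ = (x * c ^ n) * y * x⁻¹ := by group
        _ = (c ^ n * x) * y * x⁻¹ := by rw [(hcomm.pow_right n).eq]
        _ = c ^ n * (x * y * x⁻¹) := by group
        _ = c ^ (n + 1) * y := by rw [hxy, pow_succ]; group
  have h1 := hpow (orderOf x)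
  rw [pow_orderOf_eq_one] at h1
  have h2 : c ^ orderOf x = 1 := by
    have : c ^ orderOf x * y = 1 * y := by rw [← h1]; group
    exact mul_right_cancel this
  have h3 : orderOf c ∣ orderOf x := orderOf_dvd_of_pow_eq_one h2
  have h4 : orderOf c ∣ Nat.card X := by
    have := orderOf_dvd_natCard (⟨c, hcZ.1⟩ : X)
    rwa [Subgroup.orderOf_mk] at this
  have h5 : orderOf x ∣ Nat.card P := by
    have := orderOf_dvd_natCard (⟨x, hx⟩ : P)
    rwa [Subgroup.orderOf_mk] at this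
  have h6 : orderOf c = 1 :=
    Nat.Coprime.eq_one_of_dvd (Nat.Coprime.of_dvd_left (h3.trans h5) h.coprime_card) h4
  have h7 : c = 1 := orderOf_eq_one_iff.mp h6
  rw [h7, one_mul] at hxy
  calc x * y = x * y * x⁻¹ * x := by group
    _ = y * x := by rw [hxy]

theorem Cfg.ne_bot (h : Cfg p P X) : X ≠ ⊥ := by
  intro he
  apply h.nc
  intro x _ y hy
  rw [he, Subgroup.mem_bot] at hy
  rw [hy, mul_one, one_mul]

theorem Cfg.comm_ne [Finite G] (h : Cfg p P X) : ⁅X, X⁆ ≠ X := by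
  classical
  haveI : Group.IsNilpotent P := h.pgrp.isNilpotent
  have hPX := le_normalizer_of_forall h.inv
  have key : ∃ q : ℕ, ∃ _ : Fact q.Prime, ∃ S : Sylow q X,
      (S : Subgroup X).map X.subtype = X := by
    by_contra hcon
    push Not at hcon
    apply h.Zc_ne
    apply Subgroup.eq_of_le_of_card_ge (Zc_le P X)
    apply Nat.le_of_dvd Nat.card_pos
    rw [← Nat.factorization_le_iff_dvd Nat.card_pos.ne' Nat.card_pos.ne']
    intro q
    by_cases hq : q.Prime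
    · haveI := Fact.mk hq
      obtain ⟨S, hS⟩ := Cfsg.Agent.S0023.result P X hPX h.coprime_card (Or.inl inferInstance) q
      have h1 : (S : Subgroup X).map X.subtype ≤ Zc P X :=
        h.le_Zc (Subgroup.map_subtype_le _) (hcon q ⟨hq⟩ S)
          (fun x hx y hy => (Subgroup.mem_normalizer_iff.mp (hS hx) y).mp hy)
      have h2 : q ^ (Nat.card X).factorization q ∣ Nat.card (Zc P X) := by
        rw [← S.card_eq_multiplicity, ← Subgroup.card_map_of_injective X.subtype_injective]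
        exact Subgroup.card_dvd_of_le h1
      exact (Nat.Prime.pow_dvd_iff_le_factorization hq Nat.card_pos.ne').mp h2
    · rw [Nat.factorization_eq_zero_of_not_prime _ hq]
      exact Nat.zero_le _
  obtain ⟨q, hq, S, hS⟩ := key
  have hStop : (S : Subgroup X) = ⊤ := by
    apply Subgroup.map_injective X.subtype_injective
    rw [hS, ← MonoidHom.range_eq_map, Subgroup.range_subtype]
  have hXq : IsPGroup q X := by
    have := S.isPGroup'
    rw [hStop] at this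
    exact this.of_equiv Subgroup.topEquiv
  haveI : Group.IsNilpotent X := hXq.isNilpotent
  haveI : Nontrivial X := (Subgroup.nontrivial_iff_ne_bot X).mpr h.ne_bot
  have hlt := Group.IsSolvable.commutator_lt_top_of_nontrivial X
  intro he
  apply hlt.ne
  apply Subgroup.map_injective X.subtype_injective
  rw [Subgroup.map_subtype_commutator, he, ← MonoidHom.range_eq_map, Subgroup.range_subtype]

theorem conj_mem_comm {x : G} (hx : ∀ y ∈ X, x * y * x⁻¹ ∈ X) {c : G} (hc : c ∈ ⁅X, X⁆) :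
    x * c * x⁻¹ ∈ ⁅X, X⁆ := by
  have h1 : X.map (MulAut.conj x).toMonoidHom ≤ X := by
    rintro _ ⟨y, hy, rfl⟩
    exact hx y hy
  have h2 : (⁅X, X⁆).map (MulAut.conj x).toMonoidHom ≤ ⁅X, X⁆ := by
    rw [Subgroup.map_commutator]
    exact Subgroup.commutator_mono h1 h1
  exact h2 ⟨c, hc, rfl⟩

theorem Cfg.comm_le [Finite G] (h : Cfg p P X) : ⁅X, X⁆ ≤ Zc P X :=
  h.le_Zc (Subgroup.commutator_le_self X) h.comm_ne
    (fun x hx _ hc => conj_mem_comm (h.inv x hx) hc)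

theorem Cfg.comm_mem [Finite G] (h : Cfg p P X) {a b : G} (ha : a ∈ X) (hb : b ∈ X) :
    a * b * a⁻¹ * b⁻¹ ∈ Zc P X :=
  h.comm_le (Subgroup.commutator_mem_commutator ha hb)

theorem Cfg.Zc_conj [Finite G] (h : Cfg p P X) {y z : G} (hy : y ∈ X) (hz : z ∈ Zc P X) :
    y * z * y⁻¹ ∈ Zc P X := by
  have h1 := h.comm_mem hy (Zc_le P X hz)
  have h2 : y * z * y⁻¹ = (y * z * y⁻¹ * z⁻¹) * z := by group
  rw [h2]
  exact mul_mem h1 hz

/-- the fixed points are central -/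
theorem Cfg.central [Finite G] (h : Cfg p P X) {y z : G} (hy : y ∈ X) (hz : z ∈ Zc P X) :
    z * y = y * z := by
  by_contra hne
  have hCne : X ⊓ Subgroup.centralizer (Zc P X : Set G) ≠ X := by
    intro he
    rw [← he] at hy
    exact hne (Subgroup.mem_centralizer_iff.mp (Subgroup.mem_inf.mp hy).2 z hz)
  have hfixZ : ∀ x ∈ P, ∀ w ∈ Zc P X, x * w * x⁻¹ = w := by
    intro x hx w hw
    rw [(mem_Zc.mp hw).2 x hx]; group
  have hCinv : ∀ x ∈ P, ∀ c ∈ X ⊓ Subgroup.centralizer (Zc P X : Set G),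
      x * c * x⁻¹ ∈ X ⊓ Subgroup.centralizer (Zc P X : Set G) := by
    intro x hx c hc
    rw [Subgroup.mem_inf] at hc
    refine Subgroup.mem_inf.mpr ⟨h.inv x hx c hc.1, ?_⟩
    rw [Subgroup.mem_centralizer_iff]
    intro w hw
    have h1 := Subgroup.mem_centralizer_iff.mp hc.2 w hw
    have h2 := (mem_Zc.mp hw).2 x hx
    have h3 : x⁻¹ * w = w * x⁻¹ := by
      calc x⁻¹ * w = x⁻¹ * (w * x) * x⁻¹ := by group
        _ = x⁻¹ * (x * w) * x⁻¹ := by rw [h2]
        _ = w * x⁻¹ := by group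
    calc w * (x * c * x⁻¹) = (w * x) * c * x⁻¹ := by group
      _ = (x * w) * c * x⁻¹ := by rw [h2]
      _ = x * (w * c) * x⁻¹ := by group
      _ = x * (c * w) * x⁻¹ := by rw [h1]
      _ = x * c * (w * x⁻¹) := by group
      _ = x * c * (x⁻¹ * w) := by rw [h3]
      _ = x * c * x⁻¹ * w := by group
  apply h.stab _ (h.le_Zc inf_le_left hCne hCinv)
  intro x hx y' hy'
  refine Subgroup.mem_inf.mpr ⟨mul_mem (h.inv x hx y' hy') (inv_mem hy'), ?_⟩
  rw [Subgroup.mem_centralizer_iff]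
  intro w hw
  -- `y'⁻¹ w y'` is fixed by `x`
  have h1 : y'⁻¹ * w * y' ∈ Zc P X := by
    have := h.Zc_conj (inv_mem hy') hw
    rwa [inv_inv] at this
  have h2 := hfixZ x hx _ h1
  have h3 := hfixZ x hx w hw
  have h4 : (x * y' * x⁻¹)⁻¹ * w * (x * y' * x⁻¹) = y'⁻¹ * w * y' := by
    calc (x * y' * x⁻¹)⁻¹ * w * (x * y' * x⁻¹)
        = x * y'⁻¹ * x⁻¹ * (x * w * x⁻¹) * (x * y' * x⁻¹) := by rw [h3]; group
      _ = x * (y'⁻¹ * w * y') * x⁻¹ := by group
      _ = _ := h2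
  calc w * (x * y' * x⁻¹ * y'⁻¹)
      = (x * y' * x⁻¹) * ((x * y' * x⁻¹)⁻¹ * w * (x * y' * x⁻¹)) * y'⁻¹ := by group
    _ = (x * y' * x⁻¹) * (y'⁻¹ * w * y') * y'⁻¹ := by rw [h4]
    _ = x * y' * x⁻¹ * y'⁻¹ * w := by group

theorem exists_pow_of_mem_zpowers [Finite G] {x a : G} (ha : a ∈ Subgroup.zpowers x) :
    ∃ n : ℕ, x ^ n = a := by
  have := (mem_powers_iff_mem_zpowers (x := x) (y := a)).mpr ha
  exact Submonoid.mem_powers_iff a x |>.mp this

/-- a coset fixed by a nontrivial element of `P` contains a fixed point of `P` -/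
theorem Cfg.fixed_coset [Finite G] (h : Cfg p P X) {x : G} (hx : x ∈ P) (hx1 : x ≠ 1)
    (N : Subgroup G) (hNX : N ≤ X) (hN1 : ∀ w ∈ X, ∀ n ∈ N, w * n * w⁻¹ ∈ N)
    (hN2 : ∀ n ∈ N, x * n * x⁻¹ ∈ N) {y : G} (hy : y ∈ X) (hxy : x * y * x⁻¹ * y⁻¹ ∈ N) :
    ∃ c ∈ Zc P X, y⁻¹ * c ∈ N := by
  have hAP : Subgroup.zpowers x ≤ P := Subgroup.zpowers_le.mpr hx
  have hAX : ∀ a ∈ Subgroup.zpowers x, ∀ w ∈ X, a * w * a⁻¹ ∈ X :=
    fun a ha w hw => h.inv a (hAP ha) w hw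
  have hpowN : ∀ k : ℕ, ∀ n ∈ N, x ^ k * n * (x ^ k)⁻¹ ∈ N := by
    intro k
    induction k with
    | zero => intro n hn; simpa using hn
    | succ k ih =>
      intro n hn
      have h1 := hN2 _ (ih n hn)
      have h2 : x ^ (k + 1) * n * (x ^ (k + 1))⁻¹ = x * (x ^ k * n * (x ^ k)⁻¹) * x⁻¹ := by
        rw [pow_succ']; group
      rw [h2]; exact h1
  have hAN : ∀ a ∈ Subgroup.zpowers x, ∀ n ∈ N, a * n * a⁻¹ ∈ N := by
    intro a ha n hn
    obtain ⟨k, rfl⟩ := exists_pow_of_mem_zpowers ha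
    exact hpowN k n hn
  have hpowy : ∀ k : ℕ, x ^ k * y * (x ^ k)⁻¹ * y⁻¹ ∈ N := by
    intro k
    induction k with
    | zero => simp
    | succ k ih =>
      have h1 := mul_mem (hN2 _ ih) hxy
      have h2 : x ^ (k + 1) * y * (x ^ (k + 1))⁻¹ * y⁻¹ =
          x * (x ^ k * y * (x ^ k)⁻¹ * y⁻¹) * x⁻¹ * (x * y * x⁻¹ * y⁻¹) := by
        rw [pow_succ']; group
      rw [h2]; exact h1
  have hfix : ∀ a ∈ Subgroup.zpowers x, a * y * a⁻¹ * y⁻¹ ∈ N := by
    intro a ha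
    obtain ⟨k, rfl⟩ := exists_pow_of_mem_zpowers ha
    exact hpowy k
  have hcop : (Nat.card (Subgroup.zpowers x)).Coprime (Nat.card X) :=
    Nat.Coprime.of_dvd_left (Subgroup.card_dvd_of_le hAP) h.coprime_card
  obtain ⟨c, hc, hcN⟩ := Cfsg.Agent.S0022.result (Subgroup.zpowers x) X
    (le_normalizer_of_forall hAX) hcop (Or.inl inferInstance) N hNX
    (le_normalizer_of_forall hN1) (le_normalizer_of_forall hAN) y hy hfix
  rw [Subgroup.mem_inf] at hc
  refine ⟨c, mem_Zc.mpr ⟨hc.1, ?_⟩, hcN⟩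
  apply h.fix x hx hx1 c hc.1
  exact Subgroup.mem_centralizer_iff.mp hc.2 x (Subgroup.mem_zpowers x)

end TIFaith
end Cfsg.Agent.Lib.Helper25
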