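import Mathlib
import Cfsg.Agent.Lib.Helper25.TIFaith
import Cfsg.Agent.Lib.Helper24.Central
import Cfsg.Agent.Lib.Helper24.Constituent
import Cfsg.Agent.Lib.Helper2.BrauerPerm
import Cfsg.Agent.Lib.Helper2.Linear
import Cfsg.Agent.Lib.Helper13.Clifford4

/-!
# Characters in the minimal configuration
-/

set_option autoImplicit false

namespace Cfsg.Agent.Lib.Helper25
namespace TIFaith

open Cfsg Cfsg.Agent.Lib.Helper2 Cfsg.Agent.Lib.Helper6 Cfsg.Agent.Lib.Helper24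
open Cfsg.Agent.Lib.Helper13
open scoped ComplexConjugate

attribute [local instance] irrFintype

variable {G : Type*} [Group G] {p : ℕ} [hp : Fact p.Prime] {P X : Subgroup G}

/-- conjugation by an element of `P` on `X` -/
def cj (h : ∀ x ∈ P, ∀ y ∈ X, x * y * x⁻¹ ∈ X) (x : P) : X ≃* X where
  toFun y := ⟨(x : G) * y * (x : G)⁻¹, h x x.2 y y.2⟩
  invFun y := ⟨(x : G)⁻¹ * y * (x : G), by simpa using h (x : G)⁻¹ (inv_mem x.2) y y.2⟩
  left_inv y := Subtype.ext (by simp [mul_assoc])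
  right_inv y := Subtype.ext (by simp [mul_assoc])
  map_mul' a b := Subtype.ext (by simp [mul_assoc])

theorem cj_coe (h : ∀ x ∈ P, ∀ y ∈ X, x * y * x⁻¹ ∈ X) (x : P) (y : X) :
    ((cj h x y : X) : G) = (x : G) * y * (x : G)⁻¹ := rfl

theorem cj_mul (h : ∀ x ∈ P, ∀ y ∈ X, x * y * x⁻¹ ∈ X) (a b : P) (y : X) :
    cj h a (cj h b y) = cj h (a * b) y := by
  apply Subtype.ext
  simp only [cj_coe, Subgroup.coe_mul]
  group

theorem cj_of_mem_Zc (h : ∀ x ∈ P, ∀ y ∈ X, x * y * x⁻¹ ∈ X) (a : P) (z : X)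
    (hz : (z : G) ∈ Zc P X) : cj h a z = z := by
  apply Subtype.ext
  rw [cj_coe, (mem_Zc.mp hz).2 a a.2]
  group

/-- linear characters are trivial on the fixed points -/
theorem Cfg.hom_Zc [Finite G] (h : Cfg p P X) (δ : X →* ℂˣ) (z : X) (hz : (z : G) ∈ Zc P X) :
    δ z = 1 := by
  classical
  letI := Fintype.ofFinite P
  let lam : X →* ℂˣ := ∏ g : P, δ.comp (cj h.inv g).toMonoidHom
  have hlam : ∀ y, lam y = ∏ g : P, δ (cj h.inv g y) := by
    intro y
    show (∏ g : P, δ.comp (cj h.inv g).toMonoidHom) y = _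
    rw [MonoidHom.finset_prod_apply]
    rfl
  have hinv : ∀ (x : P) y, lam (cj h.inv x y) = lam y := by
    intro x y
    rw [hlam, hlam]
    exact Fintype.prod_equiv (Equiv.mulRight x) _ _ (fun g => by rw [cj_mul]; rfl)
  have hW : lam.ker.map X.subtype = X := by
    by_contra hne
    apply h.stab _ (h.le_Zc (Subgroup.map_subtype_le _) hne ?_) ?_
    · rintro x hx _ ⟨w, hw, rfl⟩
      refine ⟨cj h.inv ⟨x, hx⟩ w, ?_, rfl⟩
      rw [SetLike.mem_coe, MonoidHom.mem_ker] at hw ⊢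
      rw [hinv, hw]
    · intro x hx y hy
      refine ⟨cj h.inv ⟨x, hx⟩ ⟨y, hy⟩ * (⟨y, hy⟩ : X)⁻¹, ?_, rfl⟩
      rw [SetLike.mem_coe, MonoidHom.mem_ker, map_mul, hinv, map_inv, mul_inv_cancel]
  have hone : lam z = 1 := by
    have h1 : (z : G) ∈ lam.ker.map X.subtype := by rw [hW]; exact z.2
    obtain ⟨w, hw, hwz⟩ := h1
    have : w = z := Subtype.ext hwz
    rw [← this]
    exact hw
  rw [hlam] at hone
  simp only [cj_of_mem_Zc h.inv _ z hz, Finset.prod_const, Finset.card_univ] at hone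
  rw [← Nat.card_eq_fintype_card] at hone
  have h2 : δ z ^ Nat.card X = 1 := by rw [← map_pow, pow_card_eq_one', map_one]
  have h3 := pow_gcd_eq_one.mpr ⟨hone, h2⟩
  rwa [h.coprime_card, pow_one] at h3

/-- a linear character fixed by a nontrivial element of `P` is trivial -/
theorem Cfg.hom_eq_one [Finite G] (h : Cfg p P X) (δ : X →* ℂˣ) (x : P) (hx1 : x ≠ 1)
    (hfix : ∀ y, δ (cj h.inv x y) = δ y) (y : X) : δ y = 1 := by
  obtain ⟨c, hc, hcN⟩ := h.fixed_coset x.2 (fun he => hx1 (Subtype.ext he))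
    (δ.ker.map X.subtype) (Subgroup.map_subtype_le _) (by
      rintro w hw _ ⟨n, hn, rfl⟩
      refine ⟨(⟨w, hw⟩ : X) * n * (⟨w, hw⟩ : X)⁻¹, ?_, rfl⟩
      rw [SetLike.mem_coe, MonoidHom.mem_ker] at hn ⊢
      rw [map_mul, map_mul, hn, mul_one, map_inv, mul_inv_cancel]) (by
      rintro _ ⟨n, hn, rfl⟩
      refine ⟨cj h.inv x n, ?_, rfl⟩
      rw [SetLike.mem_coe, MonoidHom.mem_ker] at hn ⊢
      rw [hfix, hn]) y.2 (by
      refine ⟨cj h.inv x y * y⁻¹, ?_, rfl⟩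
      rw [SetLike.mem_coe, MonoidHom.mem_ker, map_mul, hfix, map_inv, mul_inv_cancel])
  obtain ⟨w, hw, hwc⟩ := hcN
  rw [SetLike.mem_coe, MonoidHom.mem_ker] at hw
  have hcX : c ∈ X := Zc_le P X hc
  have h1 : w = y⁻¹ * (⟨c, hcX⟩ : X) := Subtype.ext hwc
  rw [h1, map_mul, h.hom_Zc δ ⟨c, hcX⟩ hc, mul_one, map_inv, inv_eq_one] at hw
  exact hw

/-- the index of the fixed points exceeds the order of `P` -/
theorem Cfg.card_lt_index [Finite G] (h : Cfg p P X) :
    Nat.card P < ((Zc P X).subgroupOf X).index := by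
  classical
  letI := Fintype.ofFinite P
  obtain ⟨y₀, hy₀X, hy₀Z⟩ := SetLike.exists_of_lt (lt_of_le_of_ne (Zc_le P X) h.Zc_ne)
  let f : Option P → X ⧸ (Zc P X).subgroupOf X := fun o =>
    match o with
    | none => ((1 : X) : X ⧸ (Zc P X).subgroupOf X)
    | some x => ((cj h.inv x ⟨y₀, hy₀X⟩ : X) : X ⧸ (Zc P X).subgroupOf X)
  have hfix : ∀ x ∈ P, ∀ w ∈ Zc P X, x * w * x⁻¹ = w := by
    intro x hx w hw
    rw [(mem_Zc.mp hw).2 x hx]; group
  have hns : ∀ x : P, ((cj h.inv x ⟨y₀, hy₀X⟩ : X) : G) ∉ Zc P X := by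
    intro x hx
    apply hy₀Z
    have h1 := hfix (x : G)⁻¹ (inv_mem x.2) _ hx
    rw [cj_coe] at h1 hx
    have h2 : (x : G)⁻¹ * ((x : G) * y₀ * (x : G)⁻¹) * ((x : G)⁻¹)⁻¹ = y₀ := by group
    rw [h2] at h1
    rw [h1]
    exact hx
  have hinj : Function.Injective f := by
    intro a b hab
    match a, b with
    | none, none => rfl
    | none, some x =>
      exfalso
      have h1 : ((1 : X) : X ⧸ (Zc P X).subgroupOf X) =
          ((cj h.inv x ⟨y₀, hy₀X⟩ : X) : X ⧸ (Zc P X).subgroupOf X) := hab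
      rw [QuotientGroup.eq, inv_one, one_mul, Subgroup.mem_subgroupOf] at h1
      exact hns x h1
    | some x, none =>
      exfalso
      have h1 : ((cj h.inv x ⟨y₀, hy₀X⟩ : X) : X ⧸ (Zc P X).subgroupOf X) =
          ((1 : X) : X ⧸ (Zc P X).subgroupOf X) := hab
      rw [eq_comm, QuotientGroup.eq, inv_one, one_mul, Subgroup.mem_subgroupOf] at h1
      exact hns x h1
    | some x₁, some x₂ =>
      have h1 : ((cj h.inv x₁ ⟨y₀, hy₀X⟩ : X) : X ⧸ (Zc P X).subgroupOf X) =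
          ((cj h.inv x₂ ⟨y₀, hy₀X⟩ : X) : X ⧸ (Zc P X).subgroupOf X) := hab
      rw [QuotientGroup.eq, Subgroup.mem_subgroupOf] at h1
      simp only [Subgroup.coe_mul, Subgroup.coe_inv, cj_coe] at h1
      congr 1
      by_contra hne
      -- the element `x = x₁⁻¹ x₂`
      have hx : (x₁ : G)⁻¹ * x₂ ∈ P := mul_mem (inv_mem x₁.2) x₂.2
      have hx1 : (x₁ : G)⁻¹ * x₂ ≠ 1 := by
        intro he
        apply hne
        apply Subtype.ext
        exact (inv_mul_eq_one.mp he)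
      have h2 := hfix (x₁ : G)⁻¹ (inv_mem x₁.2) _ h1
      have h3 : y₀⁻¹ * (((x₁ : G)⁻¹ * x₂) * y₀ * ((x₁ : G)⁻¹ * x₂)⁻¹) ∈ Zc P X := by
        have h4 : y₀⁻¹ * (((x₁ : G)⁻¹ * x₂) * y₀ * ((x₁ : G)⁻¹ * x₂)⁻¹) =
            (x₁ : G)⁻¹ * (((x₁ : G) * y₀ * (x₁ : G)⁻¹)⁻¹ * ((x₂ : G) * y₀ * (x₂ : G)⁻¹)) *
              ((x₁ : G)⁻¹)⁻¹ := by group
        rw [h4, h2]
        exact h1
      have h5 : ((x₁ : G)⁻¹ * x₂) * y₀ * ((x₁ : G)⁻¹ * x₂)⁻¹ * y₀⁻¹ ∈ Zc P X := by
        have h6 := h.Zc_conj hy₀X h3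
        have h7 : y₀ * (y₀⁻¹ * (((x₁ : G)⁻¹ * x₂) * y₀ * ((x₁ : G)⁻¹ * x₂)⁻¹)) * y₀⁻¹ =
            ((x₁ : G)⁻¹ * x₂) * y₀ * ((x₁ : G)⁻¹ * x₂)⁻¹ * y₀⁻¹ := by group
        rwa [h7] at h6
      obtain ⟨c, hc, hcN⟩ := h.fixed_coset hx hx1 (Zc P X) (Zc_le P X)
        (fun w hw n hn => h.Zc_conj hw hn)
        (fun n hn => by rw [hfix _ hx n hn]; exact hn) hy₀X h5
      apply hy₀Z
      have h8 : y₀ = c * (y₀⁻¹ * c)⁻¹ := by group
      rw [h8]
      exact mul_mem hc (inv_mem hcN)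
  have hle := Nat.card_le_card_of_injective f hinj
  rw [Nat.card_eq_fintype_card (α := Option P), Fintype.card_option,
    ← Nat.card_eq_fintype_card] at hle
  exact hle

/-- a nonlinear irreducible character vanishes off the fixed points -/
theorem Cfg.vanish [Finite G] (h : Cfg p P X) {θ : X → ℂ} (hθ : IsIrrCharacter X θ)
    (hnl : θ 1 ≠ 1) (y : X) (hy : (y : G) ∉ Zc P X) : θ y = 0 := by
  classical
  letI := Fintype.ofFinite X
  have hθc := IsIrrCharacter.isCharacter hθ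
  obtain ⟨N, hNdef⟩ : ∃ N : Subgroup G,
      N = ((kerOf hθc) ⊓ (Zc P X).subgroupOf X).map X.subtype := ⟨_, rfl⟩
  have hN_Z : N ≤ Zc P X := by
    rw [hNdef]
    rintro _ ⟨n, hn, rfl⟩
    exact (Subgroup.mem_inf.mp hn).2
  have hN_of : ∀ c : X, (c : G) ∈ Zc P X → θ c = θ 1 → (c : G) ∈ N := by
    intro c hc1 hc2
    rw [hNdef]
    exact ⟨c, Subgroup.mem_inf.mpr ⟨(mem_kerOf hθc c).mpr hc2, hc1⟩, rfl⟩
  have hN_ker : ∀ c : X, (c : G) ∈ N → θ c = θ 1 := by
    intro c hc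
    rw [hNdef] at hc
    obtain ⟨n, hn, hnc⟩ := hc
    have : n = c := Subtype.ext hnc
    rw [← this]
    exact (mem_kerOf hθc n).mp (Subgroup.mem_inf.mp hn).1
  have hcen : ∀ n ∈ N, ∀ w ∈ X, w * n * w⁻¹ = n := by
    intro n hn w hw
    rw [← h.central hw (hN_Z hn)]; group
  have hfixN : ∀ x ∈ P, ∀ n ∈ N, x * n * x⁻¹ = n := by
    intro x hx n hn
    rw [(mem_Zc.mp (hN_Z hn)).2 x hx]; group
  let Y : Subgroup G :=
    { carrier := {y | y ∈ X ∧ ∀ w ∈ X, w * y * w⁻¹ * y⁻¹ ∈ N}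
      mul_mem' := by
        rintro a b ⟨ha, ha'⟩ ⟨hb, hb'⟩
        refine ⟨mul_mem ha hb, fun w hw => ?_⟩
        have h1 : w * (a * b) * w⁻¹ * (a * b)⁻¹ =
            (w * a * w⁻¹ * a⁻¹) * (a * (w * b * w⁻¹ * b⁻¹) * a⁻¹) := by group
        rw [h1, hcen _ (hb' w hw) a ha]
        exact mul_mem (ha' w hw) (hb' w hw)
      one_mem' := ⟨one_mem _, fun w _ => by simp⟩
      inv_mem' := by
        rintro a ⟨ha, ha'⟩
        refine ⟨inv_mem ha, fun w hw => ?_⟩
        have h1 : w * a⁻¹ * w⁻¹ * a⁻¹⁻¹ = a⁻¹ * (w * a * w⁻¹ * a⁻¹)⁻¹ * a⁻¹⁻¹ := by group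
        rw [h1, hcen _ (inv_mem (ha' w hw)) a⁻¹ (inv_mem ha)]
        exact inv_mem (ha' w hw) }
  have hYX : Y ≤ X := fun y hy => hy.1
  have hYinv : ∀ x ∈ P, ∀ y ∈ Y, x * y * x⁻¹ ∈ Y := by
    rintro x hx a ⟨ha, ha'⟩
    refine ⟨h.inv x hx a ha, fun w hw => ?_⟩
    have hw' : x⁻¹ * w * x ∈ X := by
      have := h.inv x⁻¹ (inv_mem hx) w hw
      rwa [inv_inv] at this
    have h1 : w * (x * a * x⁻¹) * w⁻¹ * (x * a * x⁻¹)⁻¹ =
        x * ((x⁻¹ * w * x) * a * (x⁻¹ * w * x)⁻¹ * a⁻¹) * x⁻¹ := by group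
    rw [h1, hfixN x hx _ (ha' _ hw')]
    exact ha' _ hw'
  have hYne : Y ≠ X := by
    intro he
    apply hnl
    haveI := kerOf_normal hθc
    apply degree_one_of_abelian_quotient (kerOf hθc) ?_ hθ (fun n hn => (mem_kerOf hθc n).mp hn)
    intro a b
    have hb : (b : G) ∈ Y := by rw [he]; exact b.2
    rw [mem_kerOf]
    exact hN_ker (a * b * a⁻¹ * b⁻¹) (hb.2 a a.2)
  have hYZ := h.le_Zc hYX hYne hYinv
  have hyY : (y : G) ∉ Y := fun hc => hy (hYZ hc)
  have : ∃ w ∈ X, w * (y : G) * w⁻¹ * (y : G)⁻¹ ∉ N := by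
    by_contra hcon
    push Not at hcon
    exact hyY ⟨y.2, hcon⟩
  obtain ⟨w, hw, hwN⟩ := this
  obtain ⟨c, hcdef⟩ : ∃ c : X, c = (⟨w, hw⟩ : X) * y * (⟨w, hw⟩ : X)⁻¹ * y⁻¹ := ⟨_, rfl⟩
  have hcZ : (c : G) ∈ Zc P X := by
    rw [hcdef]
    exact h.comm_mem hw y.2
  have hcN : θ c ≠ θ 1 := by
    intro he
    apply hwN
    have := hN_of c hcZ he
    rw [hcdef] at this
    exact this
  have hccen : c ∈ Subgroup.center X := by
    rw [Subgroup.mem_center_iff]
    intro g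
    apply Subtype.ext
    exact (h.central g.2 hcZ).symm
  have h1 : θ (c * y) = θ y := by
    have : c * y = (⟨w, hw⟩ : X) * y * (⟨w, hw⟩ : X)⁻¹ := by rw [hcdef]; group
    rw [this]
    exact irr_isClassFunction hθ y _
  rw [central_mul hθ hccen y] at h1
  by_contra h0
  apply hcN
  have h10 := irr_one_ne_zero hθ
  field_simp at h1
  exact h1

theorem Cfg.degree_sq [Finite G] (h : Cfg p P X) {θ : X → ℂ} (hθ : IsIrrCharacter X θ)
    (hnl : θ 1 ≠ 1) : charDegree θ ^ 2 = ((Zc P X).subgroupOf X).index := by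
  classical
  letI := Fintype.ofFinite X
  have hθc := IsIrrCharacter.isCharacter hθ
  have hsum := sum_mul_conj_self hθ
  have hterm : ∀ y : X, θ y * conj (θ y) =
      if y ∈ (Zc P X).subgroupOf X then ((charDegree θ : ℂ)) ^ 2 else 0 := by
    intro y
    by_cases hy : y ∈ (Zc P X).subgroupOf X
    · rw [if_pos hy]
      have hc : y ∈ Subgroup.center X := by
        rw [Subgroup.mem_center_iff]
        intro g
        apply Subtype.ext
        exact (h.central g.2 (Subgroup.mem_subgroupOf.mp hy)).symm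
      have hn := norm_central hθ hc
      rw [Complex.mul_conj, Complex.normSq_eq_norm_sq, hn, ← charDegree_cast hθc]
      simp
    · rw [if_neg hy, h.vanish hθ hnl y hy, zero_mul]
  simp only [hterm] at hsum
  rw [Finset.sum_ite, Finset.sum_const_zero, add_zero, Finset.sum_const, nsmul_eq_mul] at hsum
  have hcard : (Finset.univ.filter (fun y : X => y ∈ (Zc P X).subgroupOf X)).card =
      Nat.card ((Zc P X).subgroupOf X) := by
    rw [Nat.card_eq_fintype_card, Fintype.card_subtype]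
  rw [hcard] at hsum
  have hnat : Nat.card ((Zc P X).subgroupOf X) * charDegree θ ^ 2 = Nat.card X := by
    exact_mod_cast hsum
  have hidx := Subgroup.card_mul_index ((Zc P X).subgroupOf X)
  rw [← hidx] at hnat
  exact Nat.eq_of_mul_eq_mul_left Nat.card_pos hnat

theorem cj_one (h : ∀ x ∈ P, ∀ y ∈ X, x * y * x⁻¹ ∈ X) (y : X) : cj h 1 y = y := by
  apply Subtype.ext
  simp [cj_coe]

theorem Cfg.two_le_card [Finite G] (h : Cfg p P X) : 2 ≤ Nat.card P := by
  by_contra hlt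
  have h1 : Nat.card P ≤ 1 := by omega
  haveI := (Finite.card_le_one_iff_subsingleton).mp h1
  apply h.nc
  intro x hx y _
  have : (⟨x, hx⟩ : P) = 1 := Subsingleton.elim _ _
  have hx1 : x = 1 := congrArg Subtype.val this
  rw [hx1, one_mul, mul_one]

/-- the main bound -/
theorem Cfg.card_lt [Finite G] (h : Cfg p P X) {Ψ : X → ℂ} (hΨ : IsCharacter X Ψ)
    (hfaith : ∀ y : X, Ψ y = Ψ 1 → y = 1) (hinv : ∀ (x : P) (y : X), Ψ (cj h.inv x y) = Ψ y) :
    Nat.card P < charDegree Ψ ^ 2 := by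
  classical
  letI := Fintype.ofFinite X
  letI := Fintype.ofFinite P
  obtain ⟨n, hn⟩ := IsCharacter.exists_eq_sum hΨ
  have hnin : ∀ ψ : IrrCharacter X, classInner Ψ ψ = n ψ := by
    intro ψ
    conv_lhs => rw [hn]
    exact classInner_sum_irr_left _ ψ
  have hex : ∃ θ : IrrCharacter X, n θ ≠ 0 ∧ (θ : X → ℂ) ≠ fun _ => 1 := by
    by_contra hcon
    push Not at hcon
    have hconst : ∀ y : X, Ψ y = Ψ 1 := by
      intro y
      rw [hn]
      simp only [Finset.sum_apply, Pi.smul_apply, smul_eq_mul]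
      refine Finset.sum_congr rfl fun ψ _ => ?_
      by_cases h0 : n ψ = 0
      · rw [h0]; simp
      · rw [hcon ψ h0]
    apply h.ne_bot
    rw [eq_bot_iff]
    intro y hy
    have := hfaith ⟨y, hy⟩ (hconst _)
    exact congrArg Subtype.val this
  obtain ⟨θ, hnθ, hθ1⟩ := hex
  have hcon : classInner Ψ θ ≠ 0 := by rw [hnin]; exact_mod_cast hnθ
  by_cases hlin : (θ : X → ℂ) 1 = 1
  · obtain ⟨δ, hδ⟩ := exists_hom_of_degree_one (IsIrrCharacter.isCharacter θ.2) hlin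
    let ι : P → IrrCharacter X := fun x =>
      ⟨(θ : X → ℂ) ∘ cj h.inv x, IsIrrCharacter.comp_mulEquiv θ.2 (cj h.inv x)⟩
    have hιinj : Function.Injective ι := by
      intro x₁ x₂ hx
      by_contra hne
      have hx' : ∀ y, (θ : X → ℂ) (cj h.inv x₁ y) = (θ : X → ℂ) (cj h.inv x₂ y) :=
        fun y => congrFun (congrArg Subtype.val hx) y
      have hne' : x₁ * x₂⁻¹ ≠ 1 := fun he => hne (mul_inv_eq_one.mp he)
      apply hθ1
      rw [hδ]
      funext y
      rw [h.hom_eq_one δ (x₁ * x₂⁻¹) hne' ?_ y, Units.val_one]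
      intro y'
      apply Units.ext
      have h1 := hx' (cj h.inv x₂⁻¹ y')
      rw [cj_mul, cj_mul, mul_inv_cancel, cj_one, hδ] at h1
      exact h1
    have hιn : ∀ x, n (ι x) ≠ 0 := by
      intro x
      have h1 : classInner Ψ (ι x : X → ℂ) = classInner Ψ θ := by
        unfold classInner
        congr 1
        rw [← Equiv.sum_comp (cj h.inv x).toEquiv (fun g => Ψ g * conj ((θ : X → ℂ) g))]
        refine Finset.sum_congr rfl fun g _ => ?_
        show Ψ g * conj ((θ : X → ℂ) (cj h.inv x g)) =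
          Ψ (cj h.inv x g) * conj ((θ : X → ℂ) (cj h.inv x g))
        rw [hinv]
      intro h0
      apply hcon
      rw [← h1, hnin, h0]
      simp
    have hle : Nat.card P ≤ charDegree Ψ := by
      rw [degree_eq_sum n hn]
      calc Nat.card P = (Finset.univ.image ι).card := by
            rw [Finset.card_image_of_injective _ hιinj, Finset.card_univ,
              Nat.card_eq_fintype_card]
        _ = ∑ ψ ∈ Finset.univ.image ι, 1 := by simp
        _ ≤ ∑ ψ ∈ Finset.univ.image ι, n ψ * charDegree (ψ : X → ℂ) := by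
            refine Finset.sum_le_sum fun ψ hψ => ?_
            obtain ⟨x, -, rfl⟩ := Finset.mem_image.mp hψ
            exact Nat.mul_pos (Nat.pos_of_ne_zero (hιn x)) (charDegree_pos (ι x).2)
        _ ≤ _ := Finset.sum_le_sum_of_subset (Finset.subset_univ _)
    have h2 := h.two_le_card
    nlinarith
  · have h1 := h.degree_sq θ.2 hlin
    have h2 := h.card_lt_index
    have h3 := degree_le_of_constituent hΨ θ hcon
    calc Nat.card P < charDegree (θ : X → ℂ) ^ 2 := by rw [h1]; exact h2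
      _ ≤ charDegree Ψ ^ 2 := Nat.pow_le_pow_left h3 2

end TIFaith
end Cfsg.Agent.Lib.Helper25
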